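import Cfsg.Agent.GeoMax.Symp

/-!
Symplectic groups in characteristic two containing a complement of the transvections in the
unipotent radical of a point stabiliser: basic calculus.
-/

set_option autoImplicit false
set_option linter.all false

namespace Cfsg.Agent.H2.SP

open Matrix Cfsg.Geo Cfsg.Agent.GeoMax Cfsg.Agent.GeoMax.Symp
open scoped MatrixGroups

variable {ι : Type} [Fintype ι] [DecidableEq ι] {F : Type*} [Field F] [h2 : CharP F 2]
variable {f : (ι → F) → (ι → F) → F}

theorem two0 : (2 : F) = 0 := CharTwo.two_eq_zero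

theorem vv (v : ι → F) : v + v = 0 := by
  ext i; simp only [Pi.add_apply, Pi.zero_apply]; exact CharTwo.add_self_eq_zero _

theorem sy (hf : IsSymplecticForm f) (v w : ι → F) : f v w = f w v := by
  rw [hf.skew, CharTwo.neg_eq]

/-- `rho` product rule. -/
theorem rho_mul (hf : IsSymplecticForm f) {a w w' : ι → F} (h : f w a = 0) (h' : f w' a = 0) (l l' : F) :
    rho hf a w l * rho hf a w' l' = rho hf a (w + w') (l + l' + f w w') := by
  have h3 : f (w + w') a = 0 := by rw [add_left hf, h, h', add_zero]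
  apply gl_ext
  intro x
  rw [gl_mul_mulVec, rho_mulVec hf h', rho_mulVec hf h, rho_mulVec hf h3]
  have e1 : f a w = 0 := by rw [sy hf, h]
  have e2 : f a w' = 0 := by rw [sy hf, h']
  have e3 : f w' w = f w w' := sy hf _ _
  simp only [add_left hf, add_right hf, smul_left hf, self hf, h, h', e1, e2, e3]
  module

theorem rho_conj (hf : IsSymplecticForm f) {g : GL ι F} (hg : g ∈ isoGL f) {a w : ι → F} (h : f w a = 0) (l : F) :
    g * rho hf a w l * g⁻¹ = rho hf (g.1 *ᵥ a) (g.1 *ᵥ w) l := by
  have h1 : f (g.1 *ᵥ w) (g.1 *ᵥ a) = 0 := by rw [mem_isoGL.1 hg, h]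
  apply gl_ext
  intro x
  rw [gl_mul_mulVec, gl_mul_mulVec, rho_mulVec hf h, rho_mulVec hf h1]
  have h3 : ∀ z, f (((g⁻¹ : GL ι F) : Matrix ι ι F) *ᵥ x) z = f x (g.1 *ᵥ z) := by
    intro z
    have := mem_isoGL.1 hg (((g⁻¹ : GL ι F) : Matrix ι ι F) *ᵥ x) z
    rw [gl_mulVec_inv] at this
    exact this.symm
  rw [h3, h3, Matrix.mulVec_add, Matrix.mulVec_add, Matrix.mulVec_add, Matrix.mulVec_smul,
    Matrix.mulVec_smul, Matrix.mulVec_smul, gl_mulVec_inv]

theorem rho_smul (hf : IsSymplecticForm f) {a w : ι → F} (h : f w a = 0) (c l : F) :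
    rho hf (c • a) w l = rho hf a (c • w) (c * c * l) := by
  have h1 : f w (c • a) = 0 := by rw [smul_right hf, h, mul_zero]
  have h4 : f (c • w) a = 0 := by rw [smul_left hf, h, mul_zero]
  apply gl_ext
  intro x
  rw [rho_mulVec hf h1, rho_mulVec hf h4, smul_right hf, smul_right hf]
  module

theorem rho_add_self (hf : IsSymplecticForm f) {a w : ι → F} (h : f w a = 0) (c l : F) :
    rho hf a (w + c • a) l = rho hf a w l := by
  have h1 : f (w + c • a) a = 0 := by rw [add_left hf, smul_left hf, self hf, h]; ring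
  apply gl_ext
  intro x
  rw [rho_mulVec hf h1, rho_mulVec hf h, add_right hf, smul_right hf]
  ext i
  simp only [Pi.add_apply, Pi.smul_apply, smul_eq_mul]
  linear_combination (c * f x a * a i) * (two0 : (2 : F) = 0)

theorem rho_zero (hf : IsSymplecticForm f) (a : ι → F) (l : F) : rho hf a 0 l = tr hf a l := by
  apply gl_ext
  intro x
  rw [rho_mulVec hf (zero_left hf a), tr_mulVec, zero_right hf]
  simp

theorem tr_smul (hf : IsSymplecticForm f) (a : ι → F) (c l : F) : tr hf (c • a) l = tr hf a (c * c * l) := by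
  apply gl_ext
  intro x
  rw [tr_mulVec, tr_mulVec, smul_right hf]
  module

theorem tr_mul (hf : IsSymplecticForm f) (a : ι → F) (k l : F) : tr hf a k * tr hf a l = tr hf a (k + l) := by
  apply gl_ext
  intro x
  rw [gl_mul_mulVec, tr_mulVec, tr_mulVec, tr_mulVec, add_left hf, smul_left hf, self hf]
  module

theorem rho_zero' (hf : IsSymplecticForm f) (a : ι → F) : rho hf a 0 0 = 1 := by
  rw [rho_zero]
  apply gl_ext; intro x; rw [tr_mulVec]; simp

/-! ### Linear algebra -/

/-- dual vectors -/
theorem exists_dual (hf : IsSymplecticForm f) (U : Submodule F (ι → F)) {u : ι → F} (hu : u ∉ U) :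
    ∃ v, (∀ x ∈ U, f v x = 0) ∧ f v u = 1 := by
  obtain ⟨φ, h1, h3⟩ := Submodule.exists_le_ker_of_notMem hu
  obtain ⟨y, hy⟩ := exists_formVec_eq hf (fun i => φ (Pi.single i 1))
  have key : ∀ x, f x y = φ x := by
    intro x
    rw [← formVec_dotProduct (linLeft hf), hy, dotProduct]
    conv_rhs => rw [pi_eq_sum_univ x, map_sum]
    refine Finset.sum_congr rfl fun i _ => ?_
    rw [map_smul, smul_eq_mul, mul_comm]
    congr 2
    ext j; simp [Pi.single_apply, eq_comm]
  refine ⟨(φ u)⁻¹ • y, fun x hx => ?_, ?_⟩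
  · rw [sy hf, smul_right hf, key, LinearMap.mem_ker.1 (h3 hx), mul_zero]
  · rw [sy hf, smul_right hf, key, inv_mul_cancel₀ h1]

/-- vectors orthogonal to finitely many vectors, outside a subspace -/
theorem exists_perp (hf : IsSymplecticForm f) {k : ℕ} (S : Fin k → (ι → F)) (U : Submodule F (ι → F))
    (h : Module.finrank F U + k < Fintype.card ι) : ∃ w, w ∉ U ∧ ∀ i, f w (S i) = 0 := by
  by_contra hcon
  push Not at hcon
  let T : (ι → F) →ₗ[F] (Fin k → F) :=
    { toFun := fun w i => f w (S i)
      map_add' := fun x y => by ext i; simp [add_left hf]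
      map_smul' := fun c x => by ext i; simp [smul_left hf] }
  have h1 : LinearMap.ker T ≤ U := by
    intro w hw
    by_contra hwU
    obtain ⟨i, hi⟩ := hcon w hwU
    exact hi (congrFun (LinearMap.mem_ker.1 hw) i)
  have h3 := LinearMap.finrank_range_add_finrank_ker T
  have h4 := Submodule.finrank_mono h1
  have h5 := Submodule.finrank_le (LinearMap.range T)
  rw [Module.finrank_fintype_fun_eq_card] at h3 h5
  simp only [Fintype.card_fin] at h5
  omega

theorem mem_span_of_perp (hf : IsSymplecticForm f) {p d : ι → F} (h : ∀ w, f w p = 0 → f w d = 0) :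
    d ∈ Submodule.span F {p} := by
  by_contra hd
  obtain ⟨v, h1, h3⟩ := exists_dual hf _ hd
  have := h v (h1 p (Submodule.mem_span_singleton_self p))
  rw [h3] at this
  exact one_ne_zero this

end Cfsg.Agent.H2.SP
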