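import Cfsg.Agent.H2.SP.Two

/-!
The exceptional case: field of order two, dimension four, all non-zero vectors in the orbit.
-/

set_option autoImplicit false
set_option linter.all false

namespace Cfsg.Agent.H2.SP

open Matrix Cfsg.Geo Cfsg.Agent.GeoMax Cfsg.Agent.GeoMax.Symp
open scoped MatrixGroups

variable {ι : Type} [Fintype ι] [DecidableEq ι] {F : Type*} [Field F] [Fintype F] [h2 : CharP F 2]
variable {f : (ι → F) → (ι → F) → F} {L : Subgroup (GL ι F)} {a : ι → F}

/-- the exceptional configuration -/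
structure HypE (f : (ι → F) → (ι → F) → F) (L : Subgroup (GL ι F)) (a : ι → F) : Prop extends HypK f L a where
  q2 : Fintype.card F = 2
  d4 : Fintype.card ι = 4
  all : ∀ v : ι → F, v ≠ 0 → GG L a v

theorem f2 (hq : Fintype.card F = 2) (x : F) : x = 0 ∨ x = 1 := by
  classical
  by_contra h
  push Not at h
  have h1 : ({0, 1, x} : Finset F).card = 3 := Finset.card_eq_three.2 ⟨0, 1, x, zero_ne_one, h.1.symm, h.2.symm, rfl⟩
  have h3 := Finset.card_le_univ ({0, 1, x} : Finset F)
  omega

theorem f2' (hq : Fintype.card F = 2) {x : F} (h : x ≠ 0) : x = 1 := (f2 hq x).resolve_left h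

theorem mem_span_one (hq : Fintype.card F = 2) {v w : ι → F} (h : w ∈ Submodule.span F {v}) : w = 0 ∨ w = v := by
  obtain ⟨c, rfl⟩ := Submodule.mem_span_singleton.1 h
  rcases f2 hq c with h | h
  · left; rw [h, zero_smul]
  · right; rw [h, one_smul]

theorem mem_span_two (hq : Fintype.card F = 2) {v w x : ι → F} (h : x ∈ Submodule.span F {v, w}) :
    x = 0 ∨ x = v ∨ x = w ∨ x = v + w := by
  obtain ⟨c, d, rfl⟩ := Submodule.mem_span_pair.1 h
  rcases f2 hq c with h | h <;> rcases f2 hq d with h' | h' <;> simp [h, h']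

/-- in dimension four a totally isotropic plane is its own perp -/
theorem perp_plane (hf : IsSymplecticForm f) (h4 : Fintype.card ι = 4) {v w x : ι → F} (hv : v ≠ 0)
    (hw : w ∉ Submodule.span F {v}) (hwv : f w v = 0) (hx : f x v = 0) (hx' : f x w = 0) :
    x ∈ Submodule.span F {v, w} := by
  have hv' := not_mem_span_symm hw hv
  obtain ⟨y1, h11, h12⟩ := exists_dual hf _ hw
  obtain ⟨y2, h21, h22⟩ := exists_dual hf _ hv'
  have h11' := h11 v (Submodule.mem_span_singleton_self v)
  have h21' := h21 w (Submodule.mem_span_singleton_self w)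
  let T : (ι → F) →ₗ[F] (F × F) :=
    { toFun := fun x => (f x v, f x w)
      map_add' := fun x y => by simp [add_left hf]
      map_smul' := fun c x => by simp [smul_left hf] }
  have hT : ∀ x, T x = (f x v, f x w) := fun _ => rfl
  have hsurj : LinearMap.range T = ⊤ := by
    rw [eq_top_iff]
    rintro ⟨s, t⟩ -
    refine ⟨s • y2 + t • y1, ?_⟩
    rw [hT, add_left hf, add_left hf, smul_left hf, smul_left hf, smul_left hf, smul_left hf, h11', h12, h21', h22]
    simp
  have h3 := LinearMap.finrank_range_add_finrank_ker T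
  rw [hsurj, finrank_top, Module.finrank_prod, Module.finrank_self, Module.finrank_fintype_fun_eq_card, h4] at h3
  have hle : Submodule.span F {v, w} ≤ LinearMap.ker T := by
    rw [Submodule.span_le]
    rintro z (rfl | rfl)
    · change T z = 0
      rw [hT, self hf, sy hf, hwv]; rfl
    · change T z = 0
      rw [hT, self hf, hwv]; rfl
  have hli : LinearIndependent F ![v, w] := by
    rw [LinearIndependent.pair_iff' hv]
    intro c hc
    exact hw (Submodule.mem_span_singleton.2 ⟨c, hc⟩)
  have hfr : Module.finrank F (Submodule.span F {v, w}) = 2 := by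
    have := finrank_span_eq_card hli
    rw [Matrix.range_cons, Matrix.range_cons, Matrix.range_empty, Set.union_empty, Set.singleton_union] at this
    simpa using this
  have heq : Submodule.span F {v, w} = LinearMap.ker T := by
    apply Submodule.eq_of_le_of_finrank_le hle
    omega
  rw [heq, LinearMap.mem_ker, hT, hx, hx']
  rfl

theorem HypK.toHypE (H : HypK f L a) (q2 : Fintype.card F = 2) (d4 : Fintype.card ι = 4) {p b : ι → F}
    (hp : GG L a p) (hb : GG L a b) (hbp : f b p ≠ 0) {e : F} (he0 : e ≠ 0) (he : GG L a (b + e • p)) :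
    HypE f L a := by
  have key : ∀ p', GG L a p' → ∀ v, f v p' ≠ 0 → GG L a v := by
    intro p' hp' v hv
    obtain ⟨r, e', he', h1, h3⟩ := H.M2 hp hb hbp he0 he hp' hv
    rw [f2' q2 he'] at h3
    rcases f2 q2 r with h | h
    · rw [h, zero_smul, add_zero] at h1; exact h1
    · rw [h, CharTwo.add_self_eq_zero, zero_smul, add_zero] at h3; exact h3
  exact { toHypK := H, q2 := q2, d4 := d4, all := fun v hv => by
            obtain ⟨p', hp', h⟩ := H.toHyp.spans hv
            exact key p' hp' v h }

namespace HypE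

variable (H : HypE f L a)
include H

theorem ns {v w : ι → F} (hw : w ≠ 0) (hwv : w ≠ v) : w ∉ Submodule.span F {v} := by
  intro h
  rcases mem_span_one H.q2 h with h | h
  · exact hw h
  · exact hwv h

theorem perp {v w x : ι → F} (hv : v ≠ 0) (hw : w ≠ 0) (h : w ≠ v) (hwv : f w v = 0) (hx : f x v = 0)
    (hx' : f x w = 0) : x = 0 ∨ x = v ∨ x = w ∨ x = v + w :=
  mem_span_two H.q2 (perp_plane H.hf H.d4 hv (H.ns hw h) hwv hx hx')

theorem lam_symm_one {p d : ι → F} (hp : p ≠ 0) (hd : d ≠ 0) (hdp : d ≠ p) (h : f d p = 0)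
    (hl : lam H.hf L p d = 1) : lam H.hf L d p = 1 := by
  have := H.toHypK.orth_key (H.all d hd) (H.all p hp) (by rw [sy H.hf, h]) (H.ns hp hdp.symm) 1 1
  rwa [one_smul, hl, one_mul, one_smul, one_mul] at this

theorem lam_symm {p d : ι → F} (hp : p ≠ 0) (hd : d ≠ 0) (hdp : d ≠ p) (h : f d p = 0) :
    lam H.hf L p d = lam H.hf L d p := by
  rcases f2 H.q2 (lam H.hf L p d) with h1 | h1
  · rcases f2 H.q2 (lam H.hf L d p) with h3 | h3
    · rw [h1, h3]
    · have := H.lam_symm_one hd hp hdp.symm (by rw [sy H.hf, h]) h3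
      rw [this] at h1
      exact absurd h1 one_ne_zero
  · rw [h1, H.lam_symm_one hp hd hdp h h1]

theorem lam_add_self' {p d : ι → F} (hp : p ≠ 0) (h : f d p = 0) : lam H.hf L p (p + d) = lam H.hf L p d := by
  have := H.toHypK.lam_add_self (H.all p hp) h 1
  rwa [one_smul, add_comm] at this

theorem tr_sq (v : ι → F) : tr H.hf v 1 * tr H.hf v 1 = 1 := by
  rw [tr_mul, CharTwo.add_self_eq_zero, ← rho_zero, rho_zero']

/-- Case I : the alternating group. -/
theorem case1_mem (h1 : ∀ p d : ι → F, p ≠ 0 → d ≠ 0 → d ≠ p → f d p = 0 → lam H.hf L p d = 1) {y z : ι → F}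
    (hy : y ≠ 0) (hz : z ≠ 0) : tr H.hf y 1 * tr H.hf z 1 ∈ L := by
  have key : ∀ y z : ι → F, y ≠ 0 → z ≠ 0 → z ≠ y → f z y = 0 → tr H.hf y 1 * tr H.hf z 1 ∈ L := by
    intro y z hy hz hzy hf0
    have hu : z + y ≠ 0 := by
      intro h
      apply hzy
      have := congrArg (fun w => w + y) h
      simp only [zero_add] at this
      rwa [add_assoc, vv, add_zero] at this
    have huy : f y (z + y) = 0 := by rw [add_right H.hf, self H.hf, sy H.hf y z, hf0, add_zero]
    have huy' : y ≠ z + y := by
      intro h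
      exact hz (by simpa using h.symm)
    have h3 := H.toHypK.lam_mem (H.all _ hu) huy
    rw [h1 _ _ hu hy huy' huy, rho, sub_self, CharTwo.neg_eq] at h3
    have h5 : tr H.hf (z + y) 0 = 1 := by rw [← rho_zero, rho_zero']
    have h6 : z + y + y = z := by rw [add_assoc, vv, add_zero]
    rw [h5, mul_one, h6] at h3
    exact h3
  by_cases hyz : z = y
  · rw [hyz, H.tr_sq]; exact L.one_mem
  by_cases hf0 : f z y = 0
  · exact key y z hy hz hyz hf0
  obtain ⟨e, he0, hey, hez⟩ := H.toHyp.exists_w y z
  have hne1 : e ≠ y := by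
    rintro rfl
    apply hf0
    rw [sy H.hf]; exact hez
  have hne2 : z ≠ e := by
    rintro rfl
    exact hf0 hey
  have h3 := L.mul_mem (key y e hy he0 hne1 hey) (key e z he0 hz hne2 (by rw [sy H.hf, hez]))
  rw [mul_assoc, ← mul_assoc (tr H.hf e 1), H.tr_sq, one_mul] at h3
  exact h3

theorem case1_index (h1 : ∀ p d : ι → F, p ≠ 0 → d ≠ 0 → d ≠ p → f d p = 0 → lam H.hf L p d = 1) :
    (L.subgroupOf (isoGL f)).index = 2 := by
  set t := tr H.hf a 1 with ht
  have htt : t * t = 1 := H.tr_sq a
  have htL : t ∉ L := fun h => one_ne_zero (H.K0 1 h)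
  have hnorm : ∀ g ∈ L, t * g * t ∈ L := by
    intro g hg
    have h3 : g * t * g⁻¹ = tr H.hf (g.1 *ᵥ a) 1 := tr_conj H.hf (H.le hg) a 1
    have h5 := H.case1_mem h1 H.a0 (gl_ne_zero g H.a0)
    rw [← h3] at h5
    have h6 := L.mul_mem h5 hg
    have h7 : tr H.hf a 1 * (g * t * g⁻¹) * g = t * g * t := by rw [← ht]; group
    rwa [h7] at h6
  let M : Subgroup (GL ι F) :=
    { carrier := {g | g ∈ L ∨ g * t ∈ L}
      one_mem' := Or.inl L.one_mem
      mul_mem' := by
        rintro g h (hg | hg) (hh | hh)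
        · exact Or.inl (L.mul_mem hg hh)
        · right; rw [mul_assoc]; exact L.mul_mem hg hh
        · right
          have := L.mul_mem hg (hnorm h hh)
          have e : g * t * (t * h * t) = g * h * t := by
            rw [← mul_assoc, ← mul_assoc, mul_assoc g t t, htt, mul_one]
          rwa [e] at this
        · left
          have := L.mul_mem hg (hnorm _ hh)
          have e : g * t * (t * (h * t) * t) = g * h := by
            rw [← mul_assoc, ← mul_assoc, mul_assoc g t t, htt, mul_one, ← mul_assoc, mul_assoc (g * h) t t, htt,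
              mul_one]
          rwa [e] at this
      inv_mem' := by
        rintro g (hg | hg)
        · exact Or.inl (L.inv_mem hg)
        · right
          have h3 := hnorm _ (L.inv_mem hg)
          have ht' : t⁻¹ = t := inv_eq_of_mul_eq_one_right htt
          have e : t * (g * t)⁻¹ * t = g⁻¹ * t := by
            rw [_root_.mul_inv_rev, ht', ← mul_assoc, htt, one_mul]
          rwa [e] at h3 }
  have hM : isoGL f ≤ M := by
    apply iso_le H.hf
    intro v c
    rcases f2 H.q2 c with h | h
    · rw [h]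
      left
      rw [← rho_zero, rho_zero']; exact L.one_mem
    · rw [h]
      by_cases hv : v = 0
      · left
        have : tr H.hf v 1 = 1 := by
          apply gl_ext; intro x; rw [tr_mulVec, hv]; simp
        rw [this]; exact L.one_mem
      · right
        exact H.case1_mem h1 hv H.a0
  rw [Subgroup.index_eq_two_iff]
  refine ⟨⟨t, tr_mem_iso H.hf a 1⟩, fun g => ?_⟩
  rw [Subgroup.mem_subgroupOf, Subgroup.mem_subgroupOf]
  change Xor' (g.1 * t ∈ L) (g.1 ∈ L)
  rcases hM g.2 with h | h
  · right
    refine ⟨h, fun h' => htL ?_⟩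
    have := L.mul_mem (L.inv_mem h) h'
    rwa [inv_mul_cancel_left] at this
  · left
    refine ⟨h, fun h' => htL ?_⟩
    have := L.mul_mem (L.inv_mem h') h
    rwa [inv_mul_cancel_left] at this

theorem case1 (h1 : ∀ p d : ι → F, p ≠ 0 → d ≠ 0 → d ≠ p → f d p = 0 → lam H.hf L p d = 1)
    (e : isoGL f ≃* Equiv.Perm (Fin 6)) : Nonempty (L ≃* alternatingGroup (Fin 6)) := by
  have h3 := H.case1_index h1
  set M := (L.subgroupOf (isoGL f)).map (e : isoGL f →* Equiv.Perm (Fin 6)) with hM
  have h5 : M.index = 2 := by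
    rw [hM, Subgroup.index_map_equiv]
    exact h3
  have h6 := Equiv.Perm.eq_alternatingGroup_of_index_eq_two h5
  have e1 : L ≃* L.subgroupOf (isoGL f) := (Subgroup.subgroupOfEquivOfLe H.le).symm
  have e2 : L.subgroupOf (isoGL f) ≃* M := e.subgroupMap _
  exact ⟨e1.trans (e2.trans (MulEquiv.subgroupCongr h6))⟩

end HypE

end Cfsg.Agent.H2.SP
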