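import Cfsg.Agent.H2.SP.ExcA

/-!
The exceptional case: the symmetric group of degree five.
-/

set_option autoImplicit false
set_option linter.all false

namespace Cfsg.Agent.H2.SP

open Matrix Cfsg.Geo Cfsg.Agent.GeoMax Cfsg.Agent.GeoMax.Symp
open scoped MatrixGroups

variable {ι : Type} [Fintype ι] [DecidableEq ι] {F : Type*} [Field F] [Fintype F] [h2 : CharP F 2]
variable {f : (ι → F) → (ι → F) → F} {L : Subgroup (GL ι F)} {a : ι → F}

/-- the case of `S₅` -/
structure HypS (f : (ι → F) → (ι → F) → F) (L : Subgroup (GL ι F)) (a : ι → F) : Prop extends HypE f L a where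
  ex : ∃ p d : ι → F, p ≠ 0 ∧ d ≠ 0 ∧ d ≠ p ∧ f d p = 0 ∧ lam toHypE.hf L p d = 0

theorem add_ne_zero_of_ne {v w : ι → F} (h : w ≠ v) : v + w ≠ 0 := by
  intro h0
  apply h
  have := congrArg (fun z => v + z) h0
  simp only [add_zero] at this
  rwa [← add_assoc, vv, zero_add] at this

/-- the relation -/
def Rel (hf : IsSymplecticForm f) (L : Subgroup (GL ι F)) (v w : ι → F) : Prop :=
  w = v ∨ (f w v = 0 ∧ lam hf L v w = 1)

namespace HypS

variable (H : HypS f L a)
include H

theorem exz {v : ι → F} (hv : v ≠ 0) : ∃ z, z ≠ 0 ∧ z ≠ v ∧ f z v = 0 ∧ lam H.hf L v z = 0 := by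
  obtain ⟨p, d, hp, hd, hdp, h, hl⟩ := H.ex
  obtain ⟨c, hc, g, hg, h1⟩ := (H.all p hp).rel (H.all v hv)
  rw [f2' H.q2 hc, one_smul] at h1
  refine ⟨g.1 *ᵥ d, gl_ne_zero g hd, ?_, ?_, ?_⟩
  · rw [h1]
    exact fun h => hdp (gl_mulVec_injective g h)
  · rw [h1, H.toHyp.mem_iso hg, h]
  · rw [h1, H.toHypK.lam_conj (H.all p hp) h hg, hl]

theorem Rel.refl (v : ι → F) : Rel H.hf L v v := Or.inl rfl

theorem Rel.symm {v w : ι → F} (hv : v ≠ 0) (hw : w ≠ 0) (h : Rel H.hf L v w) : Rel H.hf L w v := by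
  rcases h with h | ⟨h1, h3⟩
  · exact Or.inl h.symm
  · by_cases hwv : w = v
    · exact Or.inl hwv.symm
    · right
      refine ⟨by rw [sy H.hf, h1], H.toHypE.lam_symm_one hv hw hwv h1 h3⟩

theorem f_one {x y : ι → F} (h : f x y ≠ 0) : f x y = 1 := f2' H.q2 h

theorem third {v w w' : ι → F} (hv : v ≠ 0) (hw : w ≠ 0) (hw' : w' ≠ 0) (h : w ≠ v) (h' : w' ≠ v) (hww : w' ≠ w)
    (h1 : Rel H.hf L v w) (h3 : Rel H.hf L v w') : w' = v + w := by
  obtain ⟨h1, h1'⟩ := h1.resolve_left h
  obtain ⟨h3, h3'⟩ := h3.resolve_left h'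
  by_contra hne
  obtain ⟨z, hz0, hzv, hz, hzl⟩ := H.exz hv
  -- w' is not orthogonal to w
  have e1 : f w' w = 1 := by
    apply H.f_one
    intro h5
    rcases H.toHypE.perp hv hw h h1 h3 h5 with h | h | h | h
    · exact hw' h
    · exact h' h
    · exact hww h
    · exact hne h
  have e2 : f z w = 1 := by
    apply H.f_one
    intro h5
    rcases H.toHypE.perp hv hw h h1 hz h5 with h | h | h | h
    · exact hz0 h
    · exact hzv h
    · rw [h, h1'] at hzl; exact one_ne_zero hzl
    · rw [h, H.toHypE.lam_add_self' hv h1, h1'] at hzl; exact one_ne_zero hzl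
  have e3 : f z w' = 1 := by
    apply H.f_one
    intro h5
    rcases H.toHypE.perp hv hw' h' h3 hz h5 with h | h | h | h
    · exact hz0 h
    · exact hzv h
    · rw [h, h3'] at hzl; exact one_ne_zero hzl
    · rw [h, H.toHypE.lam_add_self' hv h3, h3'] at hzl; exact one_ne_zero hzl
  have e4 : f (w + w') w = 1 := by rw [add_left H.hf, self H.hf, e1, zero_add]
  have e5 : f (z + (w + w')) w = 0 := by rw [add_left H.hf, e2, e4]; exact CharTwo.add_self_eq_zero _
  have e6 : f (z + (w + w')) w' = 0 := by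
    rw [add_left H.hf, e3, add_left H.hf, self H.hf, sy H.hf w w', e1, add_zero]; exact CharTwo.add_self_eq_zero _
  have e7 : f (w + w') v = 0 := by rw [add_left H.hf, h1, h3, add_zero]
  have e8 : f (z + (w + w')) v = 0 := by rw [add_left H.hf, hz, e7, add_zero]
  have e9 : lam H.hf L v (w + w') = 1 := by
    rw [H.toHypK.lam_add (H.all v hv) h1 h3, h1', h3', sy H.hf w w', e1]
    linear_combination (two0 : (2 : F) = 0)
  have hz' : z = w + w' ∨ z = v + (w + w') := by
    rcases H.toHypE.perp hv hw h h1 e8 e5 with h | h | h | h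
    · left
      have := congrArg (fun x => x + (w + w')) h
      simp only [zero_add] at this
      rwa [add_assoc, vv, add_zero] at this
    · right
      have h9 : z + (w + w') + (w + w') = v + (w + w') := by rw [h]
      rwa [add_assoc, vv, add_zero] at h9
    · exfalso
      rw [h, sy H.hf, e1] at e6
      exact one_ne_zero e6
    · exfalso
      rw [h, add_left H.hf, sy H.hf v w', h3, sy H.hf w w', e1, zero_add] at e6
      exact one_ne_zero e6
  rcases hz' with h | h
  · rw [h, e9] at hzl; exact one_ne_zero hzl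
  · rw [h, H.toHypE.lam_add_self' hv e7, e9] at hzl; exact one_ne_zero hzl

theorem Rel.sum {v w : ι → F} (hv : v ≠ 0) (hw : w ≠ 0) (h : w ≠ v) (h1 : Rel H.hf L v w) :
    Rel H.hf L v (v + w) := by
  obtain ⟨h1, h1'⟩ := h1.resolve_left h
  right
  exact ⟨by rw [add_left H.hf, self H.hf, h1, add_zero], by rw [H.toHypE.lam_add_self' hv h1, h1']⟩

theorem Rel.trans {u v w : ι → F} (hu : u ≠ 0) (hv : v ≠ 0) (hw : w ≠ 0) (h1 : Rel H.hf L u v)
    (h3 : Rel H.hf L v w) : Rel H.hf L u w := by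
  by_cases huv : v = u
  · rw [← huv]; exact h3
  by_cases hvw : w = v
  · rw [hvw]; exact h1
  by_cases huw : w = u
  · exact Or.inl huw
  have h5 := H.third hv hu hw (Ne.symm huv) hvw huw (Rel.symm H hu hv h1) h3
  rw [h5, add_comm]
  exact Rel.sum H hu hv huv h1

theorem exw {v : ι → F} (hv : v ≠ 0) : ∃ w, w ≠ 0 ∧ w ≠ v ∧ Rel H.hf L v w := by
  obtain ⟨z, hz0, hzv, hz, hzl⟩ := H.exz hv
  obtain ⟨z', h1, h3⟩ := exists_dual H.hf _ (H.toHypE.ns hz0 hzv)
  have h5 := h1 v (Submodule.mem_span_singleton_self v)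
  have hz'0 : z' ≠ 0 := by
    rintro rfl
    rw [zero_left H.hf] at h3
    exact zero_ne_one h3
  have hz'v : z' ≠ v := by
    rintro rfl
    rw [sy H.hf, hz] at h3
    exact zero_ne_one h3
  rcases f2 H.q2 (lam H.hf L v z') with h | h
  · refine ⟨z + z', ?_, ?_, Or.inr ⟨?_, ?_⟩⟩
    · intro h0
      have h6 := congrArg (fun x => f x z) h0
      simp only [add_left H.hf, self H.hf, h3, zero_left H.hf, zero_add] at h6
      exact one_ne_zero h6
    · intro h0
      have h6 := congrArg (fun x => f x z) h0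
      simp only [add_left H.hf, self H.hf, h3, zero_add] at h6
      rw [sy H.hf, hz] at h6
      exact one_ne_zero h6
    · rw [add_left H.hf, hz, h5, add_zero]
    · rw [H.toHypK.lam_add (H.all v hv) hz h5, hzl, h, sy H.hf, h3]
      ring
  · exact ⟨z', hz'0, hz'v, Or.inr ⟨h5, h⟩⟩

theorem Rel.conj {v w : ι → F} (hv : v ≠ 0) (h : Rel H.hf L v w) {g : GL ι F} (hg : g ∈ L) :
    Rel H.hf L (g.1 *ᵥ v) (g.1 *ᵥ w) := by
  rcases h with h | ⟨h1, h3⟩
  · left; rw [h]
  · right
    exact ⟨by rw [H.toHyp.mem_iso hg, h1], by rw [H.toHypK.lam_conj (H.all v hv) h1 hg, h3]⟩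

/-- elements preserving all classes are trivial -/
theorem faithful {g : GL ι F} (hg : g ∈ L) (h : ∀ v, v ≠ 0 → Rel H.hf L v (g.1 *ᵥ v)) : g = 1 := by
  have h0 : ∀ v, f (g.1 *ᵥ v) v = 0 := by
    intro v
    by_cases hv : v = 0
    · rw [hv, zero_right H.hf]
    rcases h v hv with h | h
    · rw [h, self H.hf]
    · exact h.1
  by_contra hne
  obtain ⟨v, hv⟩ : ∃ v, g.1 *ᵥ v ≠ v := by
    by_contra hcon
    push Not at hcon
    exact hne (gl_ext fun x => by rw [hcon]; simp)
  have h1 : ∀ u v, f (g.1 *ᵥ u) v = f (g.1 *ᵥ v) u := by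
    intro u v
    have := h0 (u + v)
    rw [Matrix.mulVec_add, add_left H.hf, add_right H.hf, add_right H.hf, h0, h0, zero_add, add_zero] at this
    rw [← sub_eq_zero, CharTwo.sub_eq_add]; exact this
  have hgg : ∀ x, g.1 *ᵥ (g.1 *ᵥ x) = x := by
    intro x
    rw [← sub_eq_zero]
    apply eq_zero_of_forall H.hf
    intro z
    rw [sub_left H.hf, h1, H.toHyp.mem_iso hg, sy H.hf z x, sub_self]
  set p := v + g.1 *ᵥ v with hp
  have hp0 : p ≠ 0 := add_ne_zero_of_ne hv
  have hgp : g.1 *ᵥ p = p := by rw [hp, Matrix.mulVec_add, hgg, add_comm]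
  -- fixed vectors
  have hfix : ∀ u, u ≠ 0 → f u p = 0 → ¬ Rel H.hf L p u → g.1 *ᵥ u = u := by
    intro u hu hup hnr
    by_contra hgu
    have hup' : u ≠ p := fun h => hnr (Or.inl h)
    have hupne : u + p ≠ 0 := add_ne_zero_of_ne hup'.symm
    have hs0 : u + g.1 *ᵥ u ≠ 0 := add_ne_zero_of_ne hgu
    have r1 := Rel.sum H hu (gl_ne_zero g hu) hgu (h u hu)
    have hgup : g.1 *ᵥ (u + p) ≠ u + p := by
      rw [Matrix.mulVec_add, hgp]
      intro h
      exact hgu (add_right_cancel h)
    have r3 := Rel.sum H hupne (gl_ne_zero g hupne) hgup (h _ hupne)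
    have e : u + p + g.1 *ᵥ (u + p) = u + g.1 *ᵥ u := by
      rw [Matrix.mulVec_add, hgp]
      have : u + p + (g.1 *ᵥ u + p) = u + g.1 *ᵥ u + (p + p) := by abel
      rw [this, vv, add_zero]
    rw [e] at r3
    have r5 : Rel H.hf L u (u + p) := Rel.trans H hu hs0 hupne r1 (Rel.symm H hupne hs0 r3)
    have r6 := Rel.sum H hu hupne (fun h => hp0 (by simpa using h)) r5
    rw [← add_assoc, vv, zero_add] at r6
    exact hnr (Rel.symm H hu hp0 r6)
  -- all vectors orthogonal to p are fixed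
  obtain ⟨z, hz0, hzp, hz, hzl⟩ := H.exz hp0
  have hznr : ¬ Rel H.hf L p z := by
    rintro (h | ⟨-, h⟩)
    · exact hzp h
    · rw [hzl] at h; exact zero_ne_one h
  have hfix' : ∀ u, f u p = 0 → g.1 *ᵥ u = u := by
    intro u hup
    by_cases hu : u = 0
    · rw [hu, Matrix.mulVec_zero]
    by_cases hr : Rel H.hf L p u
    · by_cases hup' : u = p
      · rw [hup', hgp]
      have huz : z ≠ u := by rintro rfl; exact hznr hr
      have h3 : ¬ Rel H.hf L p (u + z) := by
        intro h5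
        have huz0 : u + z ≠ 0 := add_ne_zero_of_ne huz
        by_cases h6 : u + z = p
        · have : z = p + u := by
            rw [← h6, add_comm (u + z) u, ← add_assoc, vv, zero_add]
          apply hznr
          rw [this]
          exact Rel.sum H hp0 hu hup' hr
        · have := H.third hp0 hu huz0 hup' h6 (fun h => hz0 (by simpa using h)) hr h5
          have h7 : z = p := by
            have h8 : u + (u + z) = u + (p + u) := by rw [this]
            rw [← add_assoc, vv, zero_add, add_comm p u, ← add_assoc, vv, zero_add] at h8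
            exact h8
          exact hzp h7
      have h5 := hfix (u + z) (add_ne_zero_of_ne huz) (by rw [add_left H.hf, hup, hz, add_zero]) h3
      rw [Matrix.mulVec_add, hfix z hz0 hz hznr] at h5
      exact add_right_cancel h5
    · exact hfix u hu hup hr
  -- transvection
  obtain ⟨b, hb⟩ : ∃ b, f b p = 1 := by
    obtain ⟨b, hb⟩ := exists_ne_zero H.hf hp0
    exact ⟨b, by rw [sy H.hf]; exact H.f_one hb⟩
  obtain ⟨c, hc⟩ : ∃ c : F, g.1 *ᵥ b = b + c • p := by
    have h3 : g.1 *ᵥ b + b ∈ Submodule.span F {p} := by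
      apply mem_span_of_perp H.hf
      intro w hw
      have h5 := H.toHyp.mem_iso hg w b
      rw [hfix' w hw] at h5
      rw [add_right H.hf, h5, CharTwo.add_self_eq_zero]
    obtain ⟨c, hc⟩ := Submodule.mem_span_singleton.1 h3
    refine ⟨c, ?_⟩
    rw [hc, add_comm (g.1 *ᵥ b) b, ← add_assoc, vv, zero_add]
  have hgt : g = tr H.hf p c := by
    apply gl_ext
    intro x
    have h3 : x = (x + f x p • b) + f x p • b := by rw [add_assoc, vv, add_zero]
    have h5 : f (x + f x p • b) p = 0 := by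
      rw [add_left H.hf, smul_left H.hf, hb, mul_one, CharTwo.add_self_eq_zero]
    conv_lhs => rw [h3]
    rw [Matrix.mulVec_add, hfix' _ h5, Matrix.mulVec_smul, hc, tr_mulVec, smul_add, smul_smul]
    have h6 : x + f x p • b + (f x p • b + (f x p * c) • p) = x + (f x p • b + f x p • b) + (f x p * c) • p := by
      abel
    rw [h6, vv, add_zero, mul_comm]
  rw [hgt] at hg
  have hc0 := H.toHypK.K0' (H.all p hp0) hg
  apply hne
  rw [hgt, hc0, ← rho_zero, rho_zero']

end HypS

end Cfsg.Agent.H2.SP
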