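import Cfsg.Agent.H2.SP.ExcB

/-!
The exceptional case: the action on the five classes.
-/

set_option autoImplicit false
set_option linter.all false

namespace Cfsg.Agent.H2.SP

open Matrix Cfsg.Geo Cfsg.Agent.GeoMax Cfsg.Agent.GeoMax.Symp
open scoped MatrixGroups

variable {ι : Type} [Fintype ι] [DecidableEq ι] {F : Type*} [Field F] [Fintype F] [h2 : CharP F 2]
variable {f : (ι → F) → (ι → F) → F} {L : Subgroup (GL ι F)} {a : ι → F}

namespace HypS

/-- the equivalence relation -/
def setd (H : HypS f L a) : Setoid {v : ι → F // v ≠ 0} where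
  r v w := Rel H.hf L v.1 w.1
  iseqv :=
    { refl := fun v => Rel.refl H v.1
      symm := fun {v w} h => Rel.symm H v.2 w.2 h
      trans := fun {u v w} h h' => Rel.trans H u.2 v.2 w.2 h h' }

/-- the five classes -/
def Om (H : HypS f L a) : Type _ := Quotient H.setd

/-- the class of a vector -/
def cl (H : HypS f L a) (v : {v : ι → F // v ≠ 0}) : H.Om := Quotient.mk H.setd v

theorem cl_eq (H : HypS f L a) {v w : {v : ι → F // v ≠ 0}} : H.cl v = H.cl w ↔ Rel H.hf L v.1 w.1 :=
  Quotient.eq (r := H.setd)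

theorem cl_surj (H : HypS f L a) (o : H.Om) : ∃ v, H.cl v = o := Quotient.exists_rep o

/-- the action of the group on non-zero vectors -/
def mv (g : GL ι F) (v : {v : ι → F // v ≠ 0}) : {v : ι → F // v ≠ 0} := ⟨g.1 *ᵥ v.1, gl_ne_zero g v.2⟩

/-- the action on the classes -/
def act (H : HypS f L a) : MulAction L H.Om where
  smul g := Quotient.map (sa := H.setd) (sb := H.setd) (mv g.1) (fun v w h => Rel.conj H v.2 h g.2)
  one_smul o := by
    obtain ⟨v, rfl⟩ := H.cl_surj o
    change H.cl (mv 1 v) = H.cl v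
    congr 1
    apply Subtype.ext
    change (1 : Matrix ι ι F) *ᵥ v.1 = v.1
    rw [Matrix.one_mulVec]
  mul_smul g h o := by
    obtain ⟨v, rfl⟩ := H.cl_surj o
    change H.cl (mv (g.1 * h.1) v) = H.cl (mv g.1 (mv h.1 v))
    congr 1
    apply Subtype.ext
    exact gl_mul_mulVec g.1 h.1 v.1

theorem card_fiber (H : HypS f L a) (o : H.Om) : Nat.card {v // H.cl v = o} = 3 := by
  classical
  obtain ⟨v, rfl⟩ := H.cl_surj o
  obtain ⟨w, hw0, hwv, hr⟩ := H.exw v.2
  have hs := Rel.sum H v.2 hw0 hwv hr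
  have hs0 : v.1 + w ≠ 0 := add_ne_zero_of_ne hwv
  have hset : {x : {v : ι → F // v ≠ 0} | H.cl x = H.cl v} = {v, ⟨w, hw0⟩, ⟨v.1 + w, hs0⟩} := by
    ext x
    simp only [Set.mem_setOf_eq, Set.mem_insert_iff, Set.mem_singleton_iff]
    rw [eq_comm, H.cl_eq]
    constructor
    · intro hx
      by_cases h1 : x.1 = v.1
      · left; exact Subtype.ext h1
      by_cases h3 : x.1 = w
      · right; left; exact Subtype.ext h3
      right; right
      exact Subtype.ext (H.third v.2 hw0 x.2 hwv h1 h3 hr hx)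
    · rintro (rfl | rfl | rfl)
      · exact Rel.refl H _
      · exact hr
      · exact hs
  have hcard : Nat.card {x : {v : ι → F // v ≠ 0} | H.cl x = H.cl v} = 3 := by
    rw [hset]
    have : ({v, ⟨w, hw0⟩, ⟨v.1 + w, hs0⟩} : Set {v : ι → F // v ≠ 0}) =
        (({v, ⟨w, hw0⟩, ⟨v.1 + w, hs0⟩} : Finset {v : ι → F // v ≠ 0}) : Set _) := by
      simp
    rw [this, Nat.card_coe_set_eq, Set.ncard_coe_finset, Finset.card_eq_three]
    refine ⟨v, ⟨w, hw0⟩, ⟨v.1 + w, hs0⟩, ?_, ?_, ?_, rfl⟩
    · intro h; exact hwv (congrArg Subtype.val h).symm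
    · intro h
      have := congrArg Subtype.val h
      simp only at this
      exact hw0 (by simpa using this.symm)
    · intro h
      have := congrArg Subtype.val h
      simp only at this
      exact v.2 (by simpa using this.symm)
  exact hcard

theorem card_nz (H : HypS f L a) : Nat.card {v : ι → F // v ≠ 0} = 15 := by
  classical
  have h1 : Nat.card {v : ι → F // v ≠ 0} = Fintype.card {v : ι → F // v ≠ 0} := Nat.card_eq_fintype_card
  have h3 : Fintype.card {v : ι → F // v ≠ 0} = Fintype.card (ι → F) - 1 := by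
    have := Fintype.card_subtype_compl (fun v : ι → F => v = 0)
    rw [Fintype.card_subtype_eq] at this
    exact this
  have h5 : Fintype.card (ι → F) = 16 := by
    rw [Fintype.card_fun, H.q2, H.d4]
    norm_num
  rw [h1, h3, h5]

instance finOm (H : HypS f L a) : Finite H.Om := Finite.of_surjective H.cl H.cl_surj

theorem card_Om (H : HypS f L a) : Nat.card H.Om = 5 := by
  have h1 := Nat.card_congr (Equiv.sigmaFiberEquiv H.cl)
  haveI : Fintype H.Om := Fintype.ofFinite _
  rw [Nat.card_sigma] at h1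
  simp only [H.card_fiber, H.card_nz] at h1
  rw [Finset.sum_const, smul_eq_mul, Finset.card_univ, ← Nat.card_eq_fintype_card] at h1
  omega

theorem main (H : HypS f L a) : Nonempty (L ≃* Equiv.Perm (Fin 5)) := by
  classical
  letI := H.act
  haveI : Fintype H.Om := Fintype.ofFinite _
  have hsm : ∀ (g : L) v, g • H.cl v = H.cl (mv g.1 v) := fun _ _ => rfl
  have hO : Fintype.card H.Om = 5 := by rw [← Nat.card_eq_fintype_card, H.card_Om]
  set φ := MulAction.toPermHom L H.Om with hφ
  have hφa : ∀ (g : L) o, φ g o = g • o := fun _ _ => rfl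
  have hinj : Function.Injective φ := by
    rw [injective_iff_map_eq_one]
    intro g hg
    apply Subtype.ext
    apply H.faithful g.2
    intro v hv
    have h1 : φ g (H.cl ⟨v, hv⟩) = H.cl ⟨v, hv⟩ := by rw [hg]; rfl
    rw [hφa, hsm] at h1
    exact H.cl_eq.1 h1.symm
  -- transitivity
  haveI htr : MulAction.IsPretransitive L H.Om := by
    constructor
    intro o o'
    obtain ⟨v, rfl⟩ := H.cl_surj o
    obtain ⟨w, rfl⟩ := H.cl_surj o'
    obtain ⟨c, hc, g, hg, h1⟩ := (H.all v.1 v.2).rel (H.all w.1 w.2)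
    rw [f2' H.q2 hc, one_smul] at h1
    refine ⟨⟨g, hg⟩, ?_⟩
    rw [hsm]
    congr 1
    exact Subtype.ext h1.symm
  haveI : Finite L := inferInstance
  have hdvd : 5 ∣ Nat.card L := by
    have h1 := MulAction.index_stabilizer_of_transitive L (H.cl ⟨a, H.a0⟩)
    rw [H.card_Om] at h1
    rw [← h1]
    exact Subgroup.index_dvd_card _
  have hcr : Nat.card φ.range = Nat.card L := (Nat.card_congr (MonoidHom.ofInjective hinj).toEquiv).symm
  -- the swap
  obtain ⟨z, hz0, hza, hz, hzl⟩ := H.exz H.a0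
  have hm := H.toHypK.lam_mem (H.all a H.a0) hz
  rw [hzl] at hm
  set g0 : L := ⟨rho H.hf a z 0, hm⟩ with hg0
  have hg0v : ∀ x, g0.1.1 *ᵥ x = x + f x a • z + f x z • a := by
    intro x
    change (rho H.hf a z 0 : Matrix ι ι F) *ᵥ x = _
    rw [rho_mulVec H.hf hz, zero_mul, zero_smul, add_zero]
  have hs0 : a + z ≠ 0 := add_ne_zero_of_ne hza
  have haz : f a z = 0 := by rw [sy H.hf, hz]
  have hfixv : ∀ x : {v : ι → F // v ≠ 0}, f x.1 a = 0 → f x.1 z = 0 → φ g0 (H.cl x) = H.cl x := by
    intro x h1 h3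
    rw [hφa, hsm]
    congr 1
    apply Subtype.ext
    change g0.1.1 *ᵥ x.1 = x.1
    rw [hg0v, h1, h3]
    simp
  have hne : φ g0 ≠ 1 := by
    intro h
    have h1 : g0 = 1 := hinj (by rw [h, map_one])
    obtain ⟨b, hb⟩ := exists_ne_zero H.hf H.a0
    rw [sy H.hf] at hb
    have h3 := hg0v b
    rw [h1] at h3
    change (1 : Matrix ι ι F) *ᵥ b = _ at h3
    rw [Matrix.one_mulVec, H.f_one hb, one_smul, add_assoc] at h3
    have h5 : z + f b z • a = 0 := by
      exact (left_eq_add.1 h3)
    apply H.toHypE.ns hz0 hza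
    refine Submodule.mem_span_singleton.2 ⟨f b z, ?_⟩
    have := congrArg (fun x => z + x) h5
    simp only [add_zero] at this
    rwa [← add_assoc, vv, zero_add] at this
  have hsw : (φ g0).IsSwap := by
    rw [← Equiv.Perm.card_support_eq_two]
    have h1 := Equiv.Perm.two_le_card_support_of_ne_one hne
    have h3 : (φ g0).support ⊆ ({H.cl ⟨a, H.a0⟩, H.cl ⟨z, hz0⟩, H.cl ⟨a + z, hs0⟩} : Finset H.Om)ᶜ := by
      intro o ho
      rw [Finset.mem_compl]
      intro hmem
      rw [Equiv.Perm.mem_support] at ho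
      simp only [Finset.mem_insert, Finset.mem_singleton] at hmem
      rcases hmem with rfl | rfl | rfl
      · exact ho (hfixv _ (self H.hf a) haz)
      · exact ho (hfixv _ hz (self H.hf z))
      · exact ho (hfixv _ (by rw [add_left H.hf, self H.hf, hz, add_zero]) (by
          rw [add_left H.hf, self H.hf, haz, add_zero]))
    have h5 : ({H.cl ⟨a, H.a0⟩, H.cl ⟨z, hz0⟩, H.cl ⟨a + z, hs0⟩} : Finset H.Om).card = 3 := by
      rw [Finset.card_eq_three]
      refine ⟨_, _, _, ?_, ?_, ?_, rfl⟩
      · intro h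
        rcases H.cl_eq.1 h with h | ⟨-, h⟩
        · exact hza h
        · rw [hzl] at h; exact zero_ne_one h
      · intro h
        rcases H.cl_eq.1 h with h | ⟨-, h⟩
        · exact hz0 (by simpa using h)
        · change lam H.hf L a (a + z) = 1 at h
          rw [H.toHypE.lam_add_self' H.a0 hz, hzl] at h
          exact zero_ne_one h
      · intro h
        rcases H.cl_eq.1 h with h | ⟨-, h⟩
        · exact H.a0 (by simpa using h)
        · change lam H.hf L z (a + z) = 1 at h
          rw [add_comm, H.toHypE.lam_add_self' hz0 haz, ← H.toHypE.lam_symm H.a0 hz0 hza hz, hzl] at h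
          exact zero_ne_one h
    have h6 := Finset.card_le_card h3
    rw [Finset.card_compl, h5, hO] at h6
    omega
  have htop : φ.range = ⊤ := by
    apply Equiv.Perm.subgroup_eq_top_of_swap_mem (τ := φ g0)
    · rw [hO]; norm_num
    · have h9 : ∀ (i : Fintype φ.range), @Fintype.card φ.range i = Nat.card L := fun i => by
        rw [← hcr]; exact (@Nat.card_eq_fintype_card _ i).symm
      rw [hO, h9]; exact hdvd
    · exact ⟨g0, rfl⟩
    · exact hsw
  have e1 : L ≃* φ.range := MonoidHom.ofInjective hinj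
  have e2 : φ.range ≃* (⊤ : Subgroup (Equiv.Perm H.Om)) := MulEquiv.subgroupCongr htop
  have e3 : H.Om ≃ Fin 5 := Fintype.equivFinOfCardEq hO
  exact ⟨e1.trans (e2.trans (Subgroup.topEquiv.trans e3.permCongrHom))⟩

end HypS

/-- Both cases. -/
theorem HypE.final (H : HypE f L a) (e : isoGL f ≃* Equiv.Perm (Fin 6)) :
    Nonempty (L ≃* alternatingGroup (Fin 6)) ∨ Nonempty (L ≃* Equiv.Perm (Fin 5)) := by
  by_cases h : ∀ p d : ι → F, p ≠ 0 → d ≠ 0 → d ≠ p → f d p = 0 → lam H.hf L p d = 1
  · left; exact H.case1 h e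
  · right
    push Not at h
    obtain ⟨p, d, h1, h3, h5, h6, h7⟩ := h
    have : HypS f L a := { toHypE := H, ex := ⟨p, d, h1, h3, h5, h6, (f2 H.q2 _).resolve_right h7⟩ }
    exact this.main

end Cfsg.Agent.H2.SP
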