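import Cfsg.Agent.OMax.Siegel
import Cfsg.Agent.Orth.Sum
import Cfsg.Agent.Orth.Homs

/-!
Subgroups of orthogonal groups in characteristic two containing all Siegel transformations.
-/

set_option autoImplicit false
set_option linter.all false

namespace Cfsg.Agent.H2.SP

open QuadraticMap Module Cfsg.Agent.Orth

theorem parity_iff {F V : Type*} [Field F] [AddCommGroup V] [Module F V] [FiniteDimensional F V]
    {Q : QuadraticForm F V} (hQ : (polarBilin Q).Nondegenerate) (hR : RGrp Q = ⊤) (g : OGrp Q) :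
    parityHom hQ hR g = 1 ↔ Even (finrank F (LinearMap.range (dmap g))) := by
  obtain ⟨l, rfl⟩ := exists_reflProd hR g
  obtain ⟨k, u, hu⟩ := exists_wall (reflProd Q l)
  obtain ⟨h1, -⟩ := wall_reflProd hQ l hu
  rw [parityHom_reflProd, ← hu.card, h1]
  rcases Nat.even_or_odd l.length with h | h
  · simp [h.neg_one_pow, h]
  · rw [h.neg_one_pow]
    have : ¬ Even l.length := Nat.not_even_iff_odd.2 h
    simp [this]

variable {ι : Type} [Fintype ι] [DecidableEq ι] {F : Type*} [Field F]

theorem finrank_blk {κ : Type} [Fintype κ] [DecidableEq κ] (Q₁ : QuadraticForm F (ι → F))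
    (Q₂ : QuadraticForm F (κ → F)) (g : OGrp Q₁) :
    finrank F (LinearMap.range (dmap (blk Q₁ Q₂ (g, 1)))) = finrank F (LinearMap.range (dmap g)) := by
  let inl : (ι → F) →ₗ[F] (ι ⊕ κ → F) :=
    { toFun := fun v => Sum.elim v 0
      map_add' := fun x y => by funext k; rcases k with k | k <;> simp
      map_smul' := fun c x => by funext k; rcases k with k | k <;> simp }
  have hinj : Function.Injective inl := by
    intro x y hxy
    funext i
    exact congrFun hxy (Sum.inl i)
  have hr : LinearMap.range (dmap (blk Q₁ Q₂ (g, 1))) = (LinearMap.range (dmap g)).map inl := by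
    apply le_antisymm
    · rintro _ ⟨x, rfl⟩
      refine ⟨dmap g (x ∘ Sum.inl), ⟨_, rfl⟩, ?_⟩
      rw [dmap_apply, dmap_apply, blk_apply]
      funext k
      rcases k with k | k
      · rfl
      · change (0 : F) = x (Sum.inr k) - x (Sum.inr k)
        rw [sub_self]
    · rintro _ ⟨_, ⟨x, rfl⟩, rfl⟩
      refine ⟨Sum.elim x 0, ?_⟩
      rw [dmap_apply, dmap_apply, blk_apply]
      funext k
      rcases k with k | k
      · rfl
      · change (0 : F) - 0 = 0
        rw [sub_self]
  rw [hr]
  exact (Submodule.equivMapOfInjective inl hinj _).symm.finrank_eq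

/-- auxiliary sum with a hyperbolic plane -/
noncomputable abbrev QS (Q : QuadraticForm F (ι → F)) : QuadraticForm F (ι ⊕ (Fin 1 ⊕ Fin 1) → F) :=
  qsum Q (qfPlus 1 F)

theorem QS_nd {Q : QuadraticForm F (ι → F)} (hQ : (polarBilin Q).Nondegenerate) :
    (polarBilin (QS Q)).Nondegenerate := qsum_nondegenerate hQ (qfPlus_nondegenerate 1 F)

theorem QS_top {Q : QuadraticForm F (ι → F)} (hQ : (polarBilin Q).Nondegenerate) (h4 : 4 ≤ Fintype.card ι) :
    RGrp (QS Q) = ⊤ := by
  apply RGrp_eq_top (QS_nd hQ)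
  right
  rw [finrank_fintype_fun_eq_card, Fintype.card_sum]
  simp
  omega

/-- the parity character -/
noncomputable def prt {Q : QuadraticForm F (ι → F)} (hQ : (polarBilin Q).Nondegenerate) (h4 : 4 ≤ Fintype.card ι) :
    OGrp Q →* ℤˣ :=
  (parityHom (QS_nd hQ) (QS_top hQ h4)).comp ((blk Q (qfPlus 1 F)).comp (MonoidHom.inl (OGrp Q) (OGrp (qfPlus 1 F))))

section

variable {Q : QuadraticForm F (ι → F)} (hQ : (polarBilin Q).Nondegenerate) (h4 : 4 ≤ Fintype.card ι)

theorem prt_apply (g : OGrp Q) :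
    prt hQ h4 g = parityHom (QS_nd hQ) (QS_top hQ h4) (blk Q (qfPlus 1 F) (g, 1)) := rfl

theorem prt_iff (g : OGrp Q) : prt hQ h4 g = 1 ↔ Even (finrank F (LinearMap.range (dmap g))) := by
  rw [prt_apply, parity_iff, finrank_blk]

theorem prt_refl {v : ι → F} (hv : Q v ≠ 0) : prt hQ h4 (refl Q v hv) = -1 := by
  have h1 := reflProd_embL Q (qfPlus 1 F) [⟨v, hv⟩]
  have h2 : reflProd Q [⟨v, hv⟩] = refl Q v hv := by rw [reflProd_cons, reflProd_nil, mul_one]
  rw [h2] at h1
  rw [prt_apply, ← h1, parityHom_reflProd, length_embL]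
  simp

theorem parity_eich {a b : ι ⊕ (Fin 1 ⊕ Fin 1) → F} (ha : QS Q a = 0) (hab : polar (QS Q) a b = 0) (hb : QS Q b ≠ 0) :
    parityHom (QS_nd hQ) (QS_top hQ h4) (eich (QS Q) a b ha hab) = 1 := by
  have hba : polar (QS Q) b a = 0 := by rw [pc, hab]
  have hb' : QS Q (b - QS Q b • a) ≠ 0 := by
    rw [qsub, qsmul, psr, hba, ha]
    simpa using hb
  rw [eich_eq_refl_mul ha hab hb hb', _root_.map_mul, parityHom_refl, parityHom_refl]
  simp

theorem prt_eich {a b : ι → F} (ha : Q a = 0) (hab : polar Q a b = 0) : prt hQ h4 (eich Q a b ha hab) = 1 := by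
  have ha' : QS Q (Sum.elim a 0) = 0 := by rw [q_inl, ha]
  have hp : ∀ u v : ι → F, polar (QS Q) (Sum.elim u 0) (Sum.elim v 0) = polar Q u v := by
    intro u v
    rw [polar_qsum]
    simp
  have hab' : polar (QS Q) (Sum.elim a 0) (Sum.elim b 0) = 0 := by rw [hp, hab]
  have e : blk Q (qfPlus 1 F) (eich Q a b ha hab, 1) = eich (QS Q) (Sum.elim a 0) (Sum.elim b 0) ha' hab' := by
    apply OGrp_ext
    intro x
    have h1 : ∀ u : ι → F, polar (QS Q) x (Sum.elim u 0) = polar Q (x ∘ Sum.inl) u := by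
      intro u
      rw [polar_qsum]
      simp
    rw [blk_apply, eich_apply, eich_apply, h1, h1, q_inl]
    funext k
    rcases k with k | k
    · simp
    · simp
  rw [prt_apply, e]
  by_cases hb : Q b = 0
  swap
  · exact parity_eich hQ h4 ha' hab' (by rw [q_inl]; exact hb)
  · -- split with `c` in the hyperbolic plane
    set z : Fin 1 ⊕ Fin 1 → F := Sum.elim (fun _ => 1) (fun _ => 1) with hz
    have hqz : qfPlus 1 F z = 1 := by rw [qfPlus_apply]; simp [hz]
    set c : ι ⊕ (Fin 1 ⊕ Fin 1) → F := Sum.elim 0 z with hc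
    have hqc : QS Q c = 1 := by
      rw [qsum_apply, hc, Sum.elim_comp_inl, Sum.elim_comp_inr, QuadraticMap.map_zero, hqz, zero_add]
    have hac : polar (QS Q) (Sum.elim a 0) c = 0 := by
      rw [polar_qsum, hc]; simp
    have hbc : polar (QS Q) (Sum.elim b 0) c = 0 := by
      rw [polar_qsum, hc]; simp
    have hqbc : QS Q (Sum.elim b 0 - c) = 1 := by
      rw [qsub, hqc, q_inl, hb, hbc]; ring
    have habc : polar (QS Q) (Sum.elim a 0) (Sum.elim b 0 - c) = 0 := by rw [pdr, hab', hac, sub_zero]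
    have e2 : eich (QS Q) (Sum.elim a 0) (Sum.elim b 0) ha' hab'
        = eich (QS Q) (Sum.elim a 0) (Sum.elim b 0 - c) ha' habc * eich (QS Q) (Sum.elim a 0) c ha' hac := by
      refine OGrp_ext fun x => ?_
      rw [eich_mul ha' habc hac, eich_apply, eich_apply, sub_add_cancel]
    rw [e2, _root_.map_mul, parity_eich hQ h4 ha' habc (by rw [hqbc]; exact one_ne_zero),
      parity_eich hQ h4 ha' hac (by rw [hqc]; exact one_ne_zero), one_mul]

end

/-! ### The subgroup generated by the Siegel transformations -/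

variable [Fintype F] [h2 : CharP F 2]

theorem main {Q : QuadraticForm F (ι → F)} (hQ : (polarBilin Q).Nondegenerate) (h4 : 4 ≤ Fintype.card ι)
    {a b : ι → F} (ha : Q a = 0) (hb : Q b = 0) (hab : polar Q a b = 1) (M : Subgroup (OGrp Q))
    (hM : ∀ (p w : ι → F) (hp : Q p = 0) (hpw : polar Q p w = 0), eich Q p w hp hpw ∈ M) :
    M = ⊤ ∨ ∀ g, g ∈ M ↔ Even (finrank F (LinearMap.range (dmap g))) := by
  have t0 : (2 : F) = 0 := CharTwo.two_eq_zero
  set E : Subgroup (OGrp Q) := Subgroup.closure {g | ∃ (p w : ι → F) (hp : Q p = 0) (hpw : polar Q p w = 0),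
    g = eich Q p w hp hpw} with hE
  have hEe : ∀ (p w : ι → F) (hp : Q p = 0) (hpw : polar Q p w = 0), eich Q p w hp hpw ∈ E :=
    fun p w hp hpw => Subgroup.subset_closure ⟨p, w, hp, hpw, rfl⟩
  have hEM : E ≤ M := (Subgroup.closure_le _).2 (by rintro _ ⟨p, w, hp, hpw, rfl⟩; exact hM p w hp hpw)
  have hEn : ∀ g x : OGrp Q, x ∈ E → g * x * g⁻¹ ∈ E := by
    intro g x hx
    induction hx using Subgroup.closure_induction with
    | mem x hx =>
      obtain ⟨p, w, hp, hpw, rfl⟩ := hx
      rw [Cfsg.Agent.OMax.eich_conj]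
      exact hEe _ _ _ _
    | one => rw [mul_one, mul_inv_cancel]; exact E.one_mem
    | mul x y _ _ hx hy =>
      have : g * (x * y) * g⁻¹ = (g * x * g⁻¹) * (g * y * g⁻¹) := by group
      rw [this]; exact E.mul_mem hx hy
    | inv x _ hx =>
      have : g * x⁻¹ * g⁻¹ = (g * x * g⁻¹)⁻¹ := by group
      rw [this]; exact E.inv_mem hx
  have hba : polar Q b a = 1 := by rw [pc, hab]
  have haa : polar Q a a = 0 := by rw [pself, ha, mul_zero]
  have hbb : polar Q b b = 0 := by rw [pself, hb, mul_zero]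
  have hself : ∀ v, polar Q v v = 0 := fun v => by rw [pself, t0, zero_mul]
  -- dual vectors
  have hdual : ∀ (U : Submodule F (ι → F)) (u : ι → F), u ∉ U → ∃ v, (∀ x ∈ U, polar Q v x = 0) ∧ polar Q v u = 1 := by
    intro U u hu
    obtain ⟨v, h1, h3⟩ := exists_ortho_not hQ U hu
    exact ⟨v, h1, h3⟩
  -- a vector `w1` in the perp of `a, b` with `Q w1 = 1`
  obtain ⟨w1, hw1a, hw1b, hw1⟩ : ∃ w, polar Q w a = 0 ∧ polar Q w b = 0 ∧ Q w = 1 := by
    have hnt : ∃ w, polar Q w a = 0 ∧ polar Q w b = 0 ∧ Q w ≠ 0 := by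
      by_contra hcon
      push Not at hcon
      -- the perp is nonzero and nondegenerate
      let T : (ι → F) →ₗ[F] (Fin 2 → F) :=
        { toFun := fun w => ![polar Q w a, polar Q w b]
          map_add' := fun x y => by funext i; fin_cases i <;> simp [pal]
          map_smul' := fun c x => by funext i; fin_cases i <;> simp [psl] }
      have h1 := LinearMap.finrank_range_add_finrank_ker T
      have h3 := Submodule.finrank_le (LinearMap.range T)
      rw [finrank_fintype_fun_eq_card] at h1 h3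
      simp only [Fintype.card_fin] at h3
      have h5 : 0 < finrank F (LinearMap.ker T) := by omega
      have h6 : LinearMap.ker T ≠ ⊥ := by
        intro h; rw [h, finrank_bot] at h5; omega
      obtain ⟨w, hw, hw0⟩ := Submodule.exists_mem_ne_zero_of_ne_bot h6
      have hwT := LinearMap.mem_ker.1 hw
      have hwa : polar Q w a = 0 := congrFun hwT 0
      have hwb : polar Q w b = 0 := congrFun hwT 1
      -- for `v` in the perp: polar w v = 0
      have h7 : ∀ v, polar Q v a = 0 → polar Q v b = 0 → polar Q w v = 0 := by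
        intro v hva hvb
        have e1 := hcon (w + v) (by rw [pal, hwa, hva, add_zero]) (by rw [pal, hwb, hvb, add_zero])
        rw [qadd, hcon w hwa hwb, hcon v hva hvb, zero_add, zero_add] at e1
        exact e1
      apply hw0
      apply hQ.1
      intro v
      rw [pbil]
      have e2 := h7 (v + polar Q v b • a + polar Q v a • b)
        (by rw [pal, pal, psl, psl, haa, hba]; linear_combination (polar Q v a) * t0)
        (by rw [pal, pal, psl, psl, hbb, hab]; linear_combination (polar Q v b) * t0)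
      rw [par, par, psr, psr, hwa, hwb] at e2
      simpa using e2
    obtain ⟨w, h1, h3, h5⟩ := hnt
    obtain ⟨s, hs⟩ := FiniteField.isSquare_of_char_two (F := F) (ringChar.eq F 2) (Q w)⁻¹
    refine ⟨s • w, by rw [psl, h1, mul_zero], by rw [psl, h3, mul_zero], ?_⟩
    rw [qsmul, ← hs, inv_mul_cancel₀ h5]
  have hw10 : w1 ≠ 0 := by rintro rfl; rw [QuadraticMap.map_zero] at hw1; exact zero_ne_one hw1
  have haw1 : polar Q a w1 = 0 := by rw [pc, hw1a]
  have hbw1 : polar Q b w1 = 0 := by rw [pc, hw1b]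
  -- orbit relation
  let R : (ι → F) → (ι → F) → Prop := fun x y => ∃ g ∈ E, (g : (ι → F) ≃ₗ[F] (ι → F)) x = y
  have Rtrans : ∀ x y z, R x y → R y z → R x z := by
    rintro x y z ⟨g, hg, rfl⟩ ⟨k, hk, rfl⟩
    exact ⟨k * g, E.mul_mem hk hg, by rw [coe_mul_apply]⟩
  have Rsymm : ∀ x y, R x y → R y x := by
    rintro x y ⟨g, hg, rfl⟩
    exact ⟨g⁻¹, E.inv_mem hg, coe_inv_apply_self g x⟩
  have Rmove : ∀ (p x y : ι → F) (t : F), t ≠ 0 → Q p = 0 → polar Q x p = t → polar Q y p = t → Q x = Q y → R x y := by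
    intro p x y t ht hp hx hy hxy
    obtain ⟨h1, h3⟩ := Cfsg.Agent.OMax.eich_move ht hp hx hy hxy
    exact ⟨_, hEe _ _ _ _, h3⟩
  -- `β b + w1 ~ w1`
  have st1 : ∀ (p q : ι → F), Q p = 0 → Q q = 0 → polar Q q p = 1 → polar Q w1 p = 0 → polar Q w1 q = 0 →
      ∀ β : F, R (β • q + w1) w1 := by
    intro p q hp hq hqp hwp hwq β
    have hqq : polar Q q q = 0 := hself q
    have hns : w1 ∉ Submodule.span F {q} := by
      intro h
      obtain ⟨c, hc⟩ := Submodule.mem_span_singleton.1 h
      rw [← hc, qsmul, hq, mul_zero] at hw1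
      exact zero_ne_one hw1
    obtain ⟨v, h1, h3⟩ := hdual _ _ hns
    have h5 := h1 q (Submodule.mem_span_singleton_self q)
    have h6 : polar Q q (β • v) = 0 := by rw [psr, pc, h5, mul_zero]
    refine ⟨_, hEe q (β • v) hq h6, ?_⟩
    rw [eich_apply, pal, psl, psr, pc Q q v, h5, psr, pc Q w1 v, h3, pal, psl, hqq, hwq]
    have : β • q + w1 + (β * (β * 0) + β * 1) • q - (β * 0 + 0) • β • v - (Q (β • v) * (β * 0 + 0)) • q
        = w1 + (2 * β) • q := by module
    rw [this, t0, zero_mul, zero_smul, add_zero]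
  have st2 : ∀ (p q : ι → F), Q p = 0 → Q q = 0 → polar Q q p = 1 → polar Q w1 p = 0 → polar Q w1 q = 0 →
      ∀ d : ι → F, Q d = 1 → polar Q d p ≠ 0 → R d w1 := by
    intro p q hp hq hqp hwp hwq d hd hdp
    refine Rtrans _ _ _ (Rmove p d (polar Q d p • q + w1) (polar Q d p) hdp hp rfl ?_ ?_)
      (st1 p q hp hq hqp hwp hwq _)
    · rw [pal, psl, hqp, hwp]; ring
    · rw [qadd, qsmul, hq, hw1, hd, psl, pc Q q w1, hwq]; ring
  have st3 : ∀ d : ι → F, Q d = 1 → R d w1 := by
    intro d hd
    by_cases h1 : polar Q d a = 0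
    swap
    · exact st2 a b ha hb hba hw1a hw1b d hd h1
    by_cases h3 : polar Q d b = 0
    swap
    · exact st2 b a hb ha hab hw1b hw1a d hd h3
    have hns : d ∉ Submodule.span F {a} := by
      intro h
      obtain ⟨c, hc⟩ := Submodule.mem_span_singleton.1 h
      rw [← hc, qsmul, ha, mul_zero] at hd
      exact zero_ne_one hd
    obtain ⟨v, h5, h6⟩ := hdual _ _ hns
    have h7 := h5 a (Submodule.mem_span_singleton_self a)
    have h8 : polar Q a v = 0 := by rw [pc, h7]
    have h9 : R d (d + a) := by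
      refine ⟨_, hEe a v ha h8, ?_⟩
      rw [eich_apply, pc Q d v, h6, h1]; simp
    refine Rtrans _ _ _ h9 (st2 b a hb ha hab hw1b hw1a _ ?_ ?_)
    · rw [qadd, hd, ha, h1]; ring
    · rw [pal, h3, hab]; simp
  have hw1' : Q w1 ≠ 0 := by rw [hw1]; exact one_ne_zero
  set r := refl Q w1 hw1' with hr
  have hrr : r * r = 1 := refl_mul_self hw1'
  have hrefl : ∀ (d : ι → F) (hd : Q d ≠ 0), r * refl Q d hd ∈ E := by
    intro d hd
    obtain ⟨s, hs⟩ := FiniteField.isSquare_of_char_two (F := F) (ringChar.eq F 2) (Q d)⁻¹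
    have hs0 : s ≠ 0 := by
      rintro rfl
      rw [mul_zero] at hs
      exact (inv_ne_zero hd) hs
    have hsd : Q (s • d) = 1 := by rw [qsmul, ← hs, inv_mul_cancel₀ hd]
    have hsd' : Q (s • d) ≠ 0 := by rw [hsd]; exact one_ne_zero
    have h1 : refl Q d hd = refl Q (s • d) hsd' := by
      apply OGrp_ext
      intro x
      rw [refl_apply, refl_apply, qsmul, psr, smul_smul]
      congr 2
      field_simp
    obtain ⟨g, hg, hgd⟩ := st3 _ hsd
    -- r = g refl (s d) g⁻¹
    have h3 : r = g * refl Q (s • d) hsd' * g⁻¹ := by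
      rw [refl_conj]
      apply OGrp_ext
      intro x
      rw [hr, refl_apply, refl_apply, hgd]
    rw [h1]
    set y := refl Q (s • d) hsd' with hy
    have hyy : y * y = 1 := refl_mul_self hsd'
    have hyi : y⁻¹ = y := inv_eq_of_mul_eq_one_left hyy
    have h5 : r * y = g * (y * g⁻¹ * y⁻¹) := by rw [h3, hyi]; group
    rw [h5]
    exact E.mul_mem hg (hEn y _ (E.inv_mem hg))
  have hri : r⁻¹ = r := inv_eq_of_mul_eq_one_left hrr
  have hEr : ∀ x, x ∈ E → r * x * r ∈ E := by
    intro x hx
    have := hEn r x hx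
    rwa [hri] at this
  have hP : ∀ g : OGrp Q, g ∈ E ∨ r * g ∈ E := by
    intro g
    have hg : g ∈ GGrp Q := by rw [GGrp_eq_top hQ]; trivial
    induction hg using Subgroup.closure_induction with
    | mem x hx =>
      rcases hx with ⟨v, hv, rfl⟩ | ⟨p, w, hp, hpw, rfl⟩
      · exact Or.inr (hrefl v hv)
      · exact Or.inl (hEe _ _ _ _)
    | one => exact Or.inl E.one_mem
    | mul x y _ _ hx hy =>
      rcases hx with hx | hx <;> rcases hy with hy | hy
      · exact Or.inl (E.mul_mem hx hy)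
      · right
        have : r * (x * y) = (r * x * r) * (r * y) := by
          rw [mul_assoc (r * x) r (r * y), ← mul_assoc r r y, hrr, one_mul]; group
        rw [this]; exact E.mul_mem (hEr x hx) hy
      · right
        rw [← mul_assoc]; exact E.mul_mem hx hy
      · left
        have h1 := hEr _ hx
        rw [← mul_assoc r r x, hrr, one_mul] at h1
        have : x * y = (x * r) * (r * y) := by
          rw [mul_assoc x r (r * y), ← mul_assoc r r y, hrr, one_mul]
        rw [this]; exact E.mul_mem h1 hy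
    | inv x _ hx =>
      rcases hx with hx | hx
      · exact Or.inl (E.inv_mem hx)
      · right
        have h1 := hEr _ (E.inv_mem hx)
        rw [mul_inv_rev, hri, mul_assoc, mul_assoc, hrr, mul_one] at h1
        exact h1
  -- the parity
  set ε := prt hQ h4 with hε
  have hεE : ∀ x, x ∈ E → ε x = 1 := by
    intro x hx
    induction hx using Subgroup.closure_induction with
    | mem x hx =>
      obtain ⟨p, w, hp, hpw, rfl⟩ := hx
      exact prt_eich hQ h4 hp hpw
    | one => exact _root_.map_one ε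
    | mul x y _ _ hx hy => rw [_root_.map_mul, hx, hy, one_mul]
    | inv x _ hx => rw [_root_.map_inv, hx, inv_one]
  have hεr : ε r = -1 := prt_refl hQ h4 hw1'
  have hker : ∀ x, ε x = 1 → x ∈ E := by
    intro x hx
    rcases hP x with h | h
    · exact h
    · have h1 := hεE _ h
      rw [_root_.map_mul, hεr, hx] at h1
      exact absurd h1 (by decide)
  by_cases hcase : ∃ m ∈ M, ε m ≠ 1
  · left
    obtain ⟨m, hm, hm1⟩ := hcase
    have hm2 : ε m = -1 := by
      rcases Int.units_eq_one_or (ε m) with h | h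
      · exact absurd h hm1
      · exact h
    rw [eq_top_iff]
    intro g _
    rcases Int.units_eq_one_or (ε g) with h | h
    · exact hEM (hker g h)
    · have h1 : g * m ∈ M := hEM (hker _ (by rw [_root_.map_mul, h, hm2]; decide))
      have := M.mul_mem h1 (M.inv_mem hm)
      rwa [mul_inv_cancel_right] at this
  · right
    push Not at hcase
    intro g
    rw [← prt_iff hQ h4]
    exact ⟨fun h => hcase g h, fun h => hEM (hker g h)⟩

end Cfsg.Agent.H2.SP
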