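import Cfsg.Agent.H2.SP.Quad
import Cfsg.Agent.H2.SP.OrthEnd

/-!
The orthogonal case: the group is the isometry group of a quadratic form or its subgroup of isometries
of even rank.
-/

set_option autoImplicit false
set_option linter.all false

namespace Cfsg.Agent.H2.SP

open Matrix Cfsg.Geo Cfsg.Agent.GeoMax Cfsg.Agent.GeoMax.Symp QuadraticMap Cfsg.Agent.Orth
open scoped MatrixGroups

variable {ι : Type} [Fintype ι] [DecidableEq ι] {F : Type*} [Field F] [Fintype F] [h2 : CharP F 2]
variable {f : (ι → F) → (ι → F) → F} {L : Subgroup (GL ι F)} {a : ι → F}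

theorem HypM.final (H : HypM f L a) : ∃ Q : QuadraticForm F (ι → F), (∀ u v, QuadraticMap.polar ⇑Q u v = f u v) ∧
    (L = Cfsg.isometryGroup F ⇑Q ∨
      ∀ g : GL ι F, g ∈ L ↔ (g ∈ Cfsg.isometryGroup F ⇑Q ∧ Even ((g : Matrix ι ι F) - 1).rank)) := by
  obtain ⟨Q, hpol, hsing⟩ := H.exists_quad
  refine ⟨Q, hpol, ?_⟩
  have hQadd : ∀ x y, Q (x + y) = Q x + Q y + f x y := fun x y => by rw [qadd, hpol]
  have hnd : (polarBilin Q).Nondegenerate := by
    have key : ∀ x, (∀ y, polar Q x y = 0) → x = 0 := by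
      intro x hx
      apply eq_zero_of_forall H.hf
      intro z
      rw [← hpol]; exact hx z
    refine ⟨fun x hx => key x hx, fun x hx => key x fun y => ?_⟩
    rw [pc]; exact hx y
  -- invariance
  have hinv : ∀ g ∈ L, ∀ v, Q (g.1 *ᵥ v) = Q v := by
    intro g hg
    let W : Submodule F (ι → F) :=
      { carrier := {v | Q (g.1 *ᵥ v) = Q v}
        add_mem' := fun {x y} hx hy => by
          change Q (g.1 *ᵥ (x + y)) = Q (x + y)
          change Q (g.1 *ᵥ x) = Q x at hx
          change Q (g.1 *ᵥ y) = Q y at hy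
          rw [Matrix.mulVec_add, hQadd, hQadd, hx, hy, H.toHyp.mem_iso hg]
        zero_mem' := by
          change Q (g.1 *ᵥ 0) = Q 0
          rw [Matrix.mulVec_zero]
        smul_mem' := fun c x hx => by
          change Q (g.1 *ᵥ (c • x)) = Q (c • x)
          change Q (g.1 *ᵥ x) = Q x at hx
          rw [Matrix.mulVec_smul, qsmul, qsmul, hx] }
    have hGW : ∀ v, GG L a v → v ∈ W := by
      intro v hv
      change Q (g.1 *ᵥ v) = Q v
      rw [(hsing v (hv.ne0 H.a0)).2 hv, (hsing _ ((hv.mul hg).ne0 H.a0)).2 (hv.mul hg)]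
    have hspan : Submodule.span F {v | GG L a v} = ⊤ := by
      rcases H.irr (Submodule.span F {v | GG L a v}) (fun k hk w hw => by
        induction hw using Submodule.span_induction with
        | mem x hx => exact Submodule.subset_span (GG.mul hx hk)
        | zero => rw [Matrix.mulVec_zero]; exact Submodule.zero_mem _
        | add x y _ _ hx hy => rw [Matrix.mulVec_add]; exact Submodule.add_mem _ hx hy
        | smul c x _ hx => rw [Matrix.mulVec_smul]; exact Submodule.smul_mem _ c hx) with h | h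
      · exfalso
        have h1 : a ∈ Submodule.span F {v | GG L a v} := Submodule.subset_span GG.self
        rw [h] at h1
        exact H.a0 ((Submodule.mem_bot F).1 h1)
      · exact h
    have hW : W = ⊤ := by
      rw [eq_top_iff, ← hspan]
      exact Submodule.span_le.2 hGW
    intro v
    have : v ∈ W := by rw [hW]; trivial
    exact this
  have hLi : L ≤ Cfsg.isometryGroup F ⇑Q := fun g hg u _ => hinv g hg u
  -- the elements `rho`
  have hrho : ∀ p w, Q p = 0 → p ≠ 0 → f w p = 0 → rho H.hf p w (Q w) ∈ L := by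
    intro p w hp hp0 hw
    have hpG := (hsing p hp0).1 hp
    obtain ⟨l, hl⟩ := H.toHyp.HX hpG w hw
    obtain ⟨x, hx⟩ := exists_ne_zero H.hf hp0
    have hxp : f x p ≠ 0 := by rw [sy H.hf]; exact hx
    have h1 := hinv _ hl x
    rw [rho_mulVec H.hf hw] at h1
    simp only [hQadd, qsmul, hp, add_left H.hf, smul_left H.hf, smul_right H.hf, self H.hf, hw] at h1
    have h3 : f x p * f x p * (Q w - l) = 0 := by
      linear_combination h1 - (f x p * f x p * l + f x p * f x w) * (two0 : (2 : F) = 0)
    have h4 : Q w = l := by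
      rcases mul_eq_zero.1 h3 with h | h
      · exact absurd h (mul_ne_zero hxp hxp)
      · exact sub_eq_zero.1 h
    rw [h4]; exact hl
  set M : Subgroup (OGrp Q) := (L.subgroupOf (Cfsg.isometryGroup F ⇑Q)).map
    (bridge Q : ↥(Cfsg.isometryGroup F ⇑Q) →* ↥(OGrp Q)) with hMdef
  have hMmem : ∀ (g : GL ι F) (hg : g ∈ Cfsg.isometryGroup F ⇑Q), bridge Q ⟨g, hg⟩ ∈ M ↔ g ∈ L := by
    intro g hg
    rw [hMdef]
    constructor
    · rintro ⟨k, hk, hke⟩
      have : k = ⟨g, hg⟩ := (bridge Q).injective hke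
      rw [this] at hk
      exact hk
    · intro h
      exact ⟨⟨g, hg⟩, h, rfl⟩
  have heich : ∀ (p w : ι → F) (hp : Q p = 0) (hpw : polar Q p w = 0), eich Q p w hp hpw ∈ M := by
    intro p w hp hpw
    by_cases hp0 : p = 0
    · have : eich Q p w hp hpw = 1 := by
        apply OGrp_ext
        intro x
        rw [eich_apply, coe_one_apply, hp0, polar_zero_right]
        simp
      rw [this]; exact M.one_mem
    · have hwp : f w p = 0 := by rw [← hpol, pc, hpw]
      have h1 := hrho p w hp hp0 hwp
      have h3 := (hMmem _ (hLi h1)).2 h1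
      convert h3 using 1
      apply OGrp_ext
      intro x
      rw [eich_apply, bridge_apply]
      change _ = (rho H.hf p w (Q w)).1 *ᵥ x
      rw [rho_mulVec H.hf hwp, hpol, hpol]
      ext i
      simp only [Pi.add_apply, Pi.sub_apply, Pi.smul_apply, smul_eq_mul]
      linear_combination (-(f x p * w i) - Q w * f x p * p i) * (two0 : (2 : F) = 0)
  -- hyperbolic pair
  obtain ⟨b, hb, hba⟩ := H.toHyp.exists_b
  have hQa : Q a = 0 := (hsing a H.a0).2 GG.self
  have hb' : GG L a ((f b a)⁻¹ • b) := hb.smul (inv_ne_zero hba)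
  have hQb : Q ((f b a)⁻¹ • b) = 0 := (hsing _ (hb'.ne0 H.a0)).2 hb'
  have hab : polar Q a ((f b a)⁻¹ • b) = 1 := by
    rw [hpol, smul_right H.hf, sy H.hf a b, inv_mul_cancel₀ hba]
  have hrank : ∀ (g : GL ι F) (hg : g ∈ Cfsg.isometryGroup F ⇑Q),
      Module.finrank F (LinearMap.range (dmap (bridge Q ⟨g, hg⟩))) = ((g : Matrix ι ι F) - 1).rank := by
    intro g hg
    have h1 : dmap (bridge Q ⟨g, hg⟩) = -(((g : Matrix ι ι F) - 1).mulVecLin) := by
      apply LinearMap.ext
      intro x
      rw [dmap_apply, bridge_apply, LinearMap.neg_apply, Matrix.mulVecLin_apply, Matrix.sub_mulVec, Matrix.one_mulVec]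
      abel
    rw [h1, LinearMap.range_neg, Matrix.rank]
  rcases main hnd H.dim hQa hQb hab M heich with h | h
  · left
    refine le_antisymm hLi fun g hg => ?_
    rw [← hMmem g hg, h]; trivial
  · right
    intro g
    constructor
    · intro hg
      refine ⟨hLi hg, ?_⟩
      rw [← hrank g (hLi hg), ← h, hMmem]; exact hg
    · rintro ⟨hg, hev⟩
      rw [← hMmem g hg, h, hrank]; exact hev

end Cfsg.Agent.H2.SP
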