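import Cfsg.Agent.H2.SP.Grp
import Cfsg.Agent.Solv.Core

/-!
The unipotent radical of the stabiliser of a vector: elements of `O₂` are the maps `rho`.
-/

set_option autoImplicit false
set_option linter.all false

namespace Cfsg.Agent.H2.SP

open Matrix Cfsg.Geo Cfsg.Agent.GeoMax Cfsg.Agent.GeoMax.Symp
open scoped MatrixGroups

variable {ι : Type} [Fintype ι] [DecidableEq ι] {F : Type*} [Field F] [Fintype F] [h2 : CharP F 2]
variable {f : (ι → F) → (ι → F) → F}

/-- the projection onto the complement -/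
def pr (f : (ι → F) → (ι → F) → F) (a b v : ι → F) : ι → F := v + f v b • a + f v a • b

/-- the complement -/
def W0 (hf : IsSymplecticForm f) (a b : ι → F) : Submodule F (ι → F) where
  carrier := {w | f w a = 0 ∧ f w b = 0}
  add_mem' := fun {x y} hx hy => ⟨by rw [add_left hf, hx.1, hy.1, add_zero], by rw [add_left hf, hx.2, hy.2, add_zero]⟩
  zero_mem' := ⟨zero_left hf a, zero_left hf b⟩
  smul_mem' := fun c x hx => ⟨by rw [smul_left hf, hx.1, mul_zero], by rw [smul_left hf, hx.2, mul_zero]⟩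

theorem pr_mem (hf : IsSymplecticForm f) {a b : ι → F} (hba : f b a = 1) (v : ι → F) : pr f a b v ∈ W0 hf a b := by
  have hab : f a b = 1 := by rw [sy hf, hba]
  constructor
  · rw [pr, add_left hf, add_left hf, smul_left hf, smul_left hf, self hf, hba]
    linear_combination (f v a) * (two0 : (2 : F) = 0)
  · rw [pr, add_left hf, add_left hf, smul_left hf, smul_left hf, self hf, hab]
    linear_combination (f v b) * (two0 : (2 : F) = 0)

/-- the action of the stabiliser of `a` on the complement -/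
def actW (hf : IsSymplecticForm f) {a b : ι → F} (hba : f b a = 1) (N : Subgroup (GL ι F))
    (hN : ∀ n ∈ N, n ∈ isoGL f ∧ n.1 *ᵥ a = a) : MulAction N (W0 hf a b) where
  smul n w := ⟨pr f a b (n.1.1 *ᵥ w.1), pr_mem hf hba _⟩
  one_smul w := by
    apply Subtype.ext
    change pr f a b ((1 : Matrix ι ι F) *ᵥ w.1) = w.1
    rw [Matrix.one_mulVec, pr, w.2.1, w.2.2]
    simp
  mul_smul n m w := by
    apply Subtype.ext
    change pr f a b (((n.1 * m.1 : GL ι F) : Matrix ι ι F) *ᵥ w.1) =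
      pr f a b (n.1.1 *ᵥ (pr f a b (m.1.1 *ᵥ w.1)))
    have hab : f a b = 1 := by rw [sy hf, hba]
    have h1 : f (m.1.1 *ᵥ w.1) a = 0 := by
      have := mem_isoGL.1 (hN _ m.2).1 w.1 a
      rw [(hN _ m.2).2] at this
      rw [this, w.2.1]
    rw [gl_mul_mulVec]
    have h3 : pr f a b (m.1.1 *ᵥ w.1) = m.1.1 *ᵥ w.1 + f (m.1.1 *ᵥ w.1) b • a := by
      rw [pr, h1]; simp
    rw [h3, Matrix.mulVec_add, Matrix.mulVec_smul, (hN _ n.2).2]
    rw [pr, pr, add_left hf, add_left hf, smul_left hf, smul_left hf, self hf, hab]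
    ext i
    simp only [Pi.add_apply, Pi.smul_apply, smul_eq_mul]
    linear_combination -(f (m.1.1 *ᵥ w.1) b * a i) * (two0 : (2 : F) = 0)

/-- Elements of a normal 2-subgroup of the stabiliser of `a` move vectors orthogonal to `a` by multiples of `a`. -/
theorem rad_move (hf : IsSymplecticForm f) {a : ι → F} (ha : a ≠ 0) (h4 : 4 ≤ Fintype.card ι) (N : Subgroup (GL ι F))
    (hN : ∀ n ∈ N, n ∈ isoGL f ∧ n.1 *ᵥ a = a)
    (hc : ∀ h, h ∈ isoGL f → h.1 *ᵥ a = a → ∀ n ∈ N, h * n * h⁻¹ ∈ N) (hp : IsPGroup 2 N) :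
    ∀ n ∈ N, ∀ v, f v a = 0 → n.1 *ᵥ v + v ∈ Submodule.span F {a} := by
  haveI : Fact (Nat.Prime 2) := ⟨Nat.prime_two⟩
  obtain ⟨b, hb⟩ : ∃ b, f b a = 1 := by
    obtain ⟨b, hb⟩ := exists_ne_zero hf ha
    exact ⟨(f b a)⁻¹ • b, by rw [smul_left hf]; rw [sy hf] at hb; exact inv_mul_cancel₀ hb⟩
  -- a fixed vector
  have h1 : ∃ w, w ∉ Submodule.span F {a} ∧ f w a = 0 ∧ ∀ n ∈ N, n.1 *ᵥ w + w ∈ Submodule.span F {a} := by
    letI := actW hf hb N hN
    obtain ⟨u, hu1, hu⟩ := exists_perp hf ![a, b] (⊥ : Submodule F (ι → F)) (by rw [finrank_bot]; omega)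
    have hu0 : u ≠ 0 := fun h => hu1 (by rw [h]; exact Submodule.zero_mem _)
    have hua : f u a = 0 := by simpa using hu 0
    have hub : f u b = 0 := by simpa using hu 1
    have hdvd : 2 ∣ Nat.card (W0 hf a b) := by
      have h3 : addOrderOf (⟨u, hua, hub⟩ : W0 hf a b) = 2 := by
        apply addOrderOf_eq_prime
        · apply Subtype.ext
          rw [two_nsmul]
          exact vv u
        · intro h
          exact hu0 (congrArg Subtype.val h)
      rw [← h3]
      exact addOrderOf_dvd_natCard _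
    have hz : (0 : W0 hf a b) ∈ MulAction.fixedPoints N (W0 hf a b) := by
      intro n
      apply Subtype.ext
      change pr f a b (n.1.1 *ᵥ (0 : ι → F)) = 0
      rw [Matrix.mulVec_zero, pr, zero_left hf, zero_left hf]
      simp
    obtain ⟨w, hw, hw0⟩ := hp.exists_fixed_point_of_prime_dvd_card_of_fixed_point (W0 hf a b) hdvd hz
    have hw0' : w.1 ≠ 0 := fun h => hw0 (Subtype.ext h.symm)
    refine ⟨w.1, ?_, w.2.1, ?_⟩
    · intro h
      obtain ⟨c, hc⟩ := Submodule.mem_span_singleton.1 h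
      have h5 := w.2.2
      rw [← hc, smul_left hf, sy hf, hb, mul_one] at h5
      apply hw0'
      rw [← hc, h5, zero_smul]
    · intro n hn
      have h5 : pr f a b (n.1 *ᵥ w.1) = w.1 := congrArg Subtype.val (hw ⟨n, hn⟩)
      have h6 : f (n.1 *ᵥ w.1) a = 0 := by
        have := mem_isoGL.1 (hN _ hn).1 w.1 a
        rw [(hN _ hn).2] at this
        rw [this, w.2.1]
      rw [pr, h6, zero_smul, add_zero] at h5
      refine Submodule.mem_span_singleton.2 ⟨f (n.1 *ᵥ w.1) b, ?_⟩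
      nth_rewrite 3 [← h5]
      rw [← add_assoc, vv, zero_add]
  obtain ⟨w, hwa, hwf, hw⟩ := h1
  -- invariance
  let C : (ι → F) → Prop := fun v => ∀ n ∈ N, n.1 *ᵥ v + v ∈ Submodule.span F {a}
  have hCH : ∀ h, h ∈ isoGL f → h.1 *ᵥ a = a → ∀ v, C v → C (h.1 *ᵥ v) := by
    intro h hh hha v hv n hn
    have hha' : ((h⁻¹ : GL ι F) : Matrix ι ι F) *ᵥ a = a := by
      conv_lhs => rw [← hha]
      rw [gl_inv_mulVec]
    have h3 := hv (h⁻¹ * n * h) (by
      have := hc h⁻¹ ((isoGL f).inv_mem hh) hha' n hn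
      rwa [inv_inv] at this)
    obtain ⟨c, hc⟩ := Submodule.mem_span_singleton.1 h3
    refine Submodule.mem_span_singleton.2 ⟨c, ?_⟩
    have h5 : h.1 *ᵥ (c • a) = h.1 *ᵥ (((h⁻¹ * n * h : GL ι F) : Matrix ι ι F) *ᵥ v + v) := by rw [hc]
    rw [Matrix.mulVec_smul, hha, Matrix.mulVec_add, gl_mul_mulVec, gl_mul_mulVec, gl_mulVec_inv] at h5
    exact h5
  have hCsub : ∀ u v, C u → C v → ∀ c : F, C (u + c • v) := by
    intro u v hu hv c n hn
    rw [Matrix.mulVec_add, Matrix.mulVec_smul]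
    have : n.1 *ᵥ u + c • n.1 *ᵥ v + (u + c • v) = (n.1 *ᵥ u + u) + c • (n.1 *ᵥ v + v) := by module
    rw [this]
    exact Submodule.add_mem _ (hu n hn) (Submodule.smul_mem _ _ (hv n hn))
  have hstep : ∀ w, C w → ∀ d, f d a = 0 → f w d ≠ 0 → C d := by
    intro w hw d hd hwd
    have h3 := hCH (tr hf d (f w d)⁻¹) (tr_mem_iso hf _ _) (by
      rw [tr_mulVec, sy hf a d, hd]; simp) w hw
    rw [tr_mulVec, inv_mul_cancel₀ hwd, one_smul] at h3
    have h5 := hCsub _ _ h3 hw 1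
    have h6 : w + d + (1 : F) • w = d := by rw [one_smul, add_comm w d, add_assoc, vv, add_zero]
    rwa [h6] at h5
  have hCall : ∀ d, f d a = 0 → C d := by
    intro d hd
    by_cases hda : d ∈ Submodule.span F {a}
    · obtain ⟨c, rfl⟩ := Submodule.mem_span_singleton.1 hda
      intro n hn
      rw [Matrix.mulVec_smul, (hN _ hn).2]
      exact Submodule.add_mem _ hda hda
    by_cases hwd : f w d = 0
    · obtain ⟨y1, h11, h12⟩ : ∃ y, f y a = 0 ∧ f y w ≠ 0 := by
        by_contra hcon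
        push Not at hcon
        exact hwa (mem_span_of_perp hf hcon)
      obtain ⟨y2, h21, h22⟩ : ∃ y, f y a = 0 ∧ f y d ≠ 0 := by
        by_contra hcon
        push Not at hcon
        exact hda (mem_span_of_perp hf hcon)
      obtain ⟨y, hy1, hy2, hy3⟩ : ∃ y, f y a = 0 ∧ f y w ≠ 0 ∧ f y d ≠ 0 := by
        by_cases h3 : f y1 d = 0
        · by_cases h5 : f y2 w = 0
          · refine ⟨y1 + y2, ?_, ?_, ?_⟩
            · rw [add_left hf, h11, h21, add_zero]
            · rw [add_left hf, h5, add_zero]; exact h12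
            · rw [add_left hf, h3, zero_add]; exact h22
          · exact ⟨y2, h21, h5, h22⟩
        · exact ⟨y1, h11, h12, h3⟩
      have h5 := hstep w hw y hy1 (by rw [sy hf]; exact hy2)
      exact hstep y h5 d hd hy3
    · exact hstep w hw d hd hwd
  intro n hn v hv
  exact hCall v hv n hn

/-- Elements of a normal 2-subgroup of the stabiliser are `rho`s. -/
theorem rad_rho (hf : IsSymplecticForm f) {a b : ι → F} (hb : f b a = 1) (N : Subgroup (GL ι F))
    (hN : ∀ n ∈ N, n ∈ isoGL f ∧ n.1 *ᵥ a = a)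
    (hmv : ∀ n ∈ N, ∀ v, f v a = 0 → n.1 *ᵥ v + v ∈ Submodule.span F {a}) :
    ∀ n ∈ N, f (n.1 *ᵥ b + b) a = 0 ∧ n = rho hf a (n.1 *ᵥ b + b) (f b (n.1 *ᵥ b)) := by
  intro n hn
  have hab : f a b = 1 := by rw [sy hf, hb]
  have h1 : f (n.1 *ᵥ b + b) a = 0 := by
    have := mem_isoGL.1 (hN _ hn).1 b a
    rw [(hN _ hn).2] at this
    rw [add_left hf, this, CharTwo.add_self_eq_zero]
  refine ⟨h1, ?_⟩
  have key : ∀ x, f x a = 0 → n.1 *ᵥ x = x + f x (n.1 *ᵥ b + b) • a := by
    intro x hx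
    obtain ⟨c, hc⟩ := Submodule.mem_span_singleton.1 (hmv n hn x hx)
    have h3 : n.1 *ᵥ x = x + c • a := by
      rw [hc, add_comm (n.1 *ᵥ x) x, ← add_assoc, vv, zero_add]
    have h5 := mem_isoGL.1 (hN _ hn).1 x b
    rw [h3, add_left hf, smul_left hf] at h5
    have h6 : f a (n.1 *ᵥ b) = 1 := by
      have := mem_isoGL.1 (hN _ hn).1 a b
      rwa [(hN _ hn).2, hab] at this
    rw [h6, mul_one] at h5
    rw [h3, add_right hf]
    have h7 : c = f x (n.1 *ᵥ b) + f x b := by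
      linear_combination h5 - (f x (n.1 *ᵥ b)) * (two0 : (2 : F) = 0)
    rw [h7]
  apply gl_ext
  intro x
  rw [rho_mulVec hf h1]
  have h3 : x = (x + f x a • b) + f x a • b := by
    rw [add_assoc, vv, add_zero]
  have h5 : f (x + f x a • b) a = 0 := by
    rw [add_left hf, smul_left hf, hb, mul_one, CharTwo.add_self_eq_zero]
  have h6 : n.1 *ᵥ x = (x + f x a • b) + f (x + f x a • b) (n.1 *ᵥ b + b) • a + f x a • (n.1 *ᵥ b) := by
    conv_lhs => rw [h3]
    rw [Matrix.mulVec_add, Matrix.mulVec_smul, key _ h5]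
  rw [h6]
  simp only [add_left hf, add_right hf, smul_left hf, smul_right hf, self hf]
  module

theorem rank_tr (hf : IsSymplecticForm f) {a : ι → F} (ha : a ≠ 0) {k : F} (hk : k ≠ 0) :
    (((tr hf a k : GL ι F) : Matrix ι ι F) - 1).rank = 1 := by
  have h1 : ((tr hf a k : GL ι F) : Matrix ι ι F) - 1 = vecMulVec a (k • formVec f a) := by
    rw [tr, tvec_coe]; abel
  rw [h1]
  apply le_antisymm (rank_vecMulVec_le _ _)
  rw [Nat.one_le_iff_ne_zero]
  intro h0
  have h3 : vecMulVec a (k • formVec f a) = 0 := by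
    have h5 : Module.finrank F (LinearMap.range (vecMulVec a (k • formVec f a)).mulVecLin) = 0 := h0
    rw [Submodule.finrank_eq_zero, LinearMap.range_eq_bot] at h5
    have h6 : ∀ x, (vecMulVec a (k • formVec f a)) *ᵥ x = 0 := fun x => LinearMap.congr_fun h5 x
    apply Matrix.ext_of_mulVec_single
    intro i
    rw [h6, Matrix.zero_mulVec]
  obtain ⟨z, hz⟩ := exists_ne_zero hf ha
  have h5 : tr hf a k = 1 := by
    apply Units.ext
    rw [← sub_eq_zero, Units.val_one, h1, h3]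
  have h6 := tr_mulVec hf a k z
  rw [h5, Units.val_one, Matrix.one_mulVec] at h6
  have h7 : (k * f z a) • a = 0 := by
    have := congrArg (fun w => w - z) h6
    simpa using this.symm
  rcases smul_eq_zero.1 h7 with h | h
  · rcases mul_eq_zero.1 h with h | h
    · exact hk h
    · rw [sy hf] at h; exact hz h
  · exact ha h

/-- the large transvection-free subgroup contains a `rho` for every vector -/
theorem exists_of_card (hf : IsSymplecticForm f) {a b : ι → F} (ha : a ≠ 0) (hb : f b a = 1) (X : Subgroup (GL ι F))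
    (hX : ∀ x ∈ X, f (x.1 *ᵥ b + b) a = 0 ∧ x = rho hf a (x.1 *ᵥ b + b) (f b (x.1 *ᵥ b)))
    (hcard : Fintype.card F ^ (Fintype.card ι - 2) ≤ Nat.card X)
    (hntv : ∀ x ∈ X, ((x : Matrix ι ι F) - 1).rank ≠ 1) :
    ∀ w, f w a = 0 → ∃ l, rho hf a w l ∈ X := by
  have hab : f a b = 1 := by rw [sy hf, hb]
  let φ : X → W0 hf a b := fun x => ⟨pr f a b (x.1.1 *ᵥ b + b), pr_mem hf hb _⟩
  have hφ : ∀ x : X, x.1 = rho hf a (φ x).1 (f b (x.1.1 *ᵥ b)) ∧ f (φ x).1 a = 0 := by
    intro x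
    obtain ⟨h1, h3⟩ := hX x.1 x.2
    have h5 : (φ x).1 = (x.1.1 *ᵥ b + b) + f (x.1.1 *ᵥ b + b) b • a := by
      change pr f a b _ = _
      rw [pr, h1]; simp
    refine ⟨?_, (φ x).2.1⟩
    rw [h5, rho_add_self hf h1]
    exact h3
  have hinj : Function.Injective φ := by
    intro x y hxy
    obtain ⟨h1, h3⟩ := hφ x
    obtain ⟨h5, h6⟩ := hφ y
    rw [hxy] at h1
    have h7 := X.mul_mem x.2 y.2
    have h8 : x.1 * y.1 = tr hf a (f b (x.1.1 *ᵥ b) + f b (y.1.1 *ᵥ b)) := by
      conv_lhs => rw [h1, h5]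
      rw [rho_mul hf h6 h6, vv, rho_zero, self hf, add_zero]
    by_cases hk : f b (x.1.1 *ᵥ b) + f b (y.1.1 *ᵥ b) = 0
    · have h9 : f b (x.1.1 *ᵥ b) = f b (y.1.1 *ᵥ b) := by
        rw [← sub_eq_zero, CharTwo.sub_eq_add]; exact hk
      apply Subtype.ext
      rw [h1, h5, h9]
    · exact absurd (by rw [h8]; exact rank_tr hf ha hk) (hntv _ h7)
  -- cardinality of `W0`
  have hW : Module.finrank F (W0 hf a b) ≤ Fintype.card ι - 2 := by
    let T : (ι → F) →ₗ[F] (F × F) :=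
      { toFun := fun w => (f w a, f w b)
        map_add' := fun x y => by simp [add_left hf]
        map_smul' := fun c x => by simp [smul_left hf] }
    have hker : LinearMap.ker T = W0 hf a b := by
      ext w
      rw [LinearMap.mem_ker]
      change (f w a, f w b) = (0, 0) ↔ f w a = 0 ∧ f w b = 0
      rw [Prod.mk.injEq]
    have hsurj : LinearMap.range T = ⊤ := by
      rw [eq_top_iff]
      rintro ⟨s, t⟩ -
      refine ⟨s • b + t • a, ?_⟩
      change (f (s • b + t • a) a, f (s • b + t • a) b) = (s, t)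
      rw [add_left hf, add_left hf, smul_left hf, smul_left hf, smul_left hf, smul_left hf, self hf, self hf, hb, hab]
      simp
    have h3 := LinearMap.finrank_range_add_finrank_ker T
    rw [hsurj, finrank_top, hker, Module.finrank_prod, Module.finrank_self, Module.finrank_fintype_fun_eq_card] at h3
    omega
  have hcW : Nat.card (W0 hf a b) ≤ Nat.card X := by
    refine le_trans ?_ hcard
    rw [Module.natCard_eq_pow_finrank (K := F), Nat.card_eq_fintype_card]
    exact Nat.pow_le_pow_right Fintype.card_pos hW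
  have hbij : Function.Bijective φ := by
    haveI : Finite X := inferInstance
    have h3 : Nat.card X = Nat.card (W0 hf a b) :=
      le_antisymm (Nat.card_le_card_of_injective φ hinj) hcW
    exact (Nat.bijective_iff_injective_and_card φ).2 ⟨hinj, h3⟩
  intro w hw
  have h1 : w + f w b • a ∈ W0 hf a b := by
    constructor
    · rw [add_left hf, smul_left hf, self hf, hw]; ring
    · rw [add_left hf, smul_left hf, hab, mul_one, CharTwo.add_self_eq_zero]
  obtain ⟨x, hx⟩ := hbij.2 ⟨_, h1⟩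
  obtain ⟨h3, -⟩ := hφ x
  rw [hx] at h3
  refine ⟨f b (x.1.1 *ᵥ b), ?_⟩
  rw [← rho_add_self hf hw (f w b)]
  rw [← h3]
  exact x.2

/-- Everything together. -/
theorem exists_of_pCore (hf : IsSymplecticForm f) {a : ι → F} (ha : a ≠ 0) (h4 : 4 ≤ Fintype.card ι)
    (X : Subgroup (GL ι F))
    (hXO : ∀ H : Subgroup (GL ι F), (∀ g : GL ι F, g ∈ H ↔ (g ∈ isoGL f ∧ Matrix.mulVec (g : Matrix ι ι F) a = a)) →
      X ≤ (Cfsg.pCore 2 ↥H).map H.subtype)
    (hcard : Fintype.card F ^ (Fintype.card ι - 2) ≤ Nat.card X)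
    (hntv : ∀ x ∈ X, ((x : Matrix ι ι F) - 1).rank ≠ 1) :
    ∀ w, f w a = 0 → ∃ l, rho hf a w l ∈ X := by
  obtain ⟨b, hb⟩ : ∃ b, f b a = 1 := by
    obtain ⟨b, hb⟩ := exists_ne_zero hf ha
    exact ⟨(f b a)⁻¹ • b, by rw [smul_left hf]; rw [sy hf] at hb; exact inv_mul_cancel₀ hb⟩
  let H : Subgroup (GL ι F) :=
    { carrier := {g | g ∈ isoGL f ∧ g.1 *ᵥ a = a}
      mul_mem' := fun {x y} hx hy => ⟨(isoGL f).mul_mem hx.1 hy.1, by
        change ((x * y : GL ι F) : Matrix ι ι F) *ᵥ a = a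
        rw [gl_mul_mulVec, hy.2, hx.2]⟩
      one_mem' := ⟨(isoGL f).one_mem, by simp⟩
      inv_mem' := fun {x} hx => ⟨(isoGL f).inv_mem hx.1, by
        change ((x⁻¹ : GL ι F) : Matrix ι ι F) *ᵥ a = a
        conv_lhs => rw [← hx.2]
        rw [gl_inv_mulVec]⟩ }
  have hH : ∀ g, g ∈ H ↔ (g ∈ isoGL f ∧ g.1 *ᵥ a = a) := fun g => Iff.rfl
  have hXN := hXO H hH
  set N := (Cfsg.pCore 2 ↥H).map H.subtype with hNdef
  have hN : ∀ n ∈ N, n ∈ isoGL f ∧ n.1 *ᵥ a = a := by
    rintro n ⟨m, -, rfl⟩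
    exact (hH _).1 m.2
  have hc : ∀ h, h ∈ isoGL f → h.1 *ᵥ a = a → ∀ n ∈ N, h * n * h⁻¹ ∈ N := by
    intro h hh hha n hn
    obtain ⟨m, hm, hmn⟩ := Subgroup.mem_map.1 hn
    have hmem : h ∈ H := ⟨hh, hha⟩
    have h9 := (Solv.pCore_normal (G := ↥H) 2).conj_mem m hm ⟨h, hmem⟩
    refine Subgroup.mem_map.2 ⟨_, h9, ?_⟩
    rw [map_mul, map_mul, map_inv, hmn]
    rfl
  have hp : IsPGroup 2 N := (Solv.pCore_isPGroup 2).map _
  have hmv := rad_move hf ha h4 N hN hc hp
  have hrho := rad_rho hf hb N hN hmv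
  exact exists_of_card hf ha hb X (fun x hx => hrho x (hXN hx)) hcard hntv

end Cfsg.Agent.H2.SP
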