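import Cfsg.Agent.H2.SP.ExcC
import Cfsg.Agent.H2.SP.FinQ
import Cfsg.Agent.H2.SP.Rad
import Cfsg.Agent.ClassSp.Sp42

/-!
Assembly.
-/

set_option autoImplicit false
set_option linter.all false

namespace Cfsg.Agent.H2.SP

open Matrix Cfsg.Geo Cfsg.Agent.GeoMax Cfsg.Agent.GeoMax.Symp
open scoped MatrixGroups

/-- the standard form -/
def sfo (F : Type*) [Field F] (n : ℕ) : (Fin n ⊕ Fin n → F) → (Fin n ⊕ Fin n → F) → F :=
  fun u v => ∑ i : Fin n, (u (Sum.inl i) * v (Sum.inr i) + u (Sum.inr i) * v (Sum.inl i))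

theorem sfo_eq {F : Type*} [Field F] [CharP F 2] {n : ℕ} (u v : Fin n ⊕ Fin n → F) :
    sfo F n u v = ClassSp.sf u v := by
  unfold sfo ClassSp.sf
  refine Finset.sum_congr rfl fun i _ => ?_
  rw [CharTwo.sub_eq_add]

theorem sfo_symp {F : Type*} [Field F] [CharP F 2] {n : ℕ} : IsSymplecticForm (sfo F n) := by
  have e : sfo F n = ClassSp.sf := by
    funext u v; exact sfo_eq u v
  rw [e]
  refine ⟨⟨fun u v w => ClassSp.sf_add_left u v w, fun c u v => ClassSp.sf_smul_left c u v,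
    fun u v w => ClassSp.sf_add_right u v w, fun c u v => ClassSp.sf_smul_right c u v⟩,
    fun u v => ClassSp.sf_swap u v, ?_, ?_⟩
  · intro v; exact ClassSp.sf_self v
  · intro v hv
    obtain ⟨u, hu⟩ := ClassSp.exists_sf_ne_zero hv
    refine ⟨⟨u, hu⟩, ⟨u, ?_⟩⟩
    rw [ClassSp.sf_swap]; exact neg_ne_zero.2 hu

/-- the isometry group as the symplectic group of Mathlib -/
noncomputable def isoEquiv {F : Type*} [Field F] [CharP F 2] {n : ℕ} :
    isoGL (sfo F n) ≃* Matrix.symplecticGroup (Fin n) F :=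
  MulEquiv.ofBijective
    ({ toFun := fun g => ⟨g.1.1, by
        rw [ClassSp.mem_symplectic_iff]
        intro u v
        rw [← sfo_eq, ← sfo_eq]
        exact mem_isoGL.1 g.2 u v⟩
       map_one' := rfl
       map_mul' := fun _ _ => rfl } : isoGL (sfo F n) →* Matrix.symplecticGroup (Fin n) F)
    ⟨fun g h hgh => Subtype.ext (Units.ext (congrArg Subtype.val hgh)), fun A => by
      refine ⟨⟨⟨A.1, (A⁻¹).1, ?_, ?_⟩, ?_⟩, rfl⟩
      · have := mul_inv_cancel A
        exact congrArg Subtype.val this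
      · have := inv_mul_cancel A
        exact congrArg Subtype.val this
      · rw [mem_isoGL]
        intro u v
        rw [sfo_eq, sfo_eq]
        exact (ClassSp.mem_symplectic_iff _).1 A.2 u v⟩

theorem exists_perm_six {F : Type*} [Field F] [Fintype F] [CharP F 2] (hF : Fintype.card F = 2) :
    Nonempty (isoGL (sfo F 2) ≃* Equiv.Perm (Fin 6)) := by
  obtain ⟨e⟩ := Cfsg.Agent.ClassSp.Sp42.main
  let eF : F ≃+* ZMod 2 := (ZMod.ringEquivOfPrime F (by norm_num) hF).symm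
  exact ⟨isoEquiv.trans ((Cfsg.Agent.ClassSp.spCongr eF).trans e)⟩

theorem assembly {F : Type*} [Field F] [Fintype F] [CharP F 2] {n : ℕ} (hn : 2 ≤ n) (a : (Fin n ⊕ Fin n → F)) (ha : a ≠ 0)
    (X : Subgroup (GL (Fin n ⊕ Fin n) F))
    (hXO : ∀ H : Subgroup (GL (Fin n ⊕ Fin n) F),
      (∀ g : GL (Fin n ⊕ Fin n) F, g ∈ H ↔ (g ∈ isoGL (sfo F n) ∧ Matrix.mulVec (g : Matrix (Fin n ⊕ Fin n) (Fin n ⊕ Fin n) F) a = a)) →
      X ≤ (Cfsg.pCore 2 ↥H).map H.subtype)
    (hcard : Nat.card ↥X = Fintype.card F ^ (2 * n - 2))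
    (hntv : ∀ x ∈ X, ((x : Matrix (Fin n ⊕ Fin n) (Fin n ⊕ Fin n) F) - 1).rank ≠ 1)
    (L : Subgroup (GL (Fin n ⊕ Fin n) F)) (hXL : X ≤ L) (hLG : L ≤ isoGL (sfo F n))
    (hirr : ∀ W : Submodule F (Fin n ⊕ Fin n → F), (∀ g ∈ L, ∀ w ∈ W, Matrix.mulVec (g : Matrix (Fin n ⊕ Fin n) (Fin n ⊕ Fin n) F) w ∈ W) → W = ⊥ ∨ W = ⊤) :
    L = isoGL (sfo F n) ∨
    (∃ Q : QuadraticForm F (Fin n ⊕ Fin n → F), (∀ u v, QuadraticMap.polar ⇑Q u v = sfo F n u v) ∧
      (L = Cfsg.isometryGroup F ⇑Q ∨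
        ∀ g : GL (Fin n ⊕ Fin n) F, g ∈ L ↔ (g ∈ Cfsg.isometryGroup F ⇑Q ∧ Even ((g : Matrix (Fin n ⊕ Fin n) (Fin n ⊕ Fin n) F) - 1).rank))) ∨
    (Fintype.card F = 2 ∧ n = 2 ∧ (Nonempty (↥L ≃* ↥(alternatingGroup (Fin 6))) ∨ Nonempty (↥L ≃* Equiv.Perm (Fin 5)))) := by
  have hι : Fintype.card (Fin n ⊕ Fin n) = 2 * n := by simp; ring
  have hX := exists_of_pCore (sfo_symp (F := F) (n := n)) ha (by rw [hι]; omega) X hXO (by rw [hι, hcard]) hntv
  have H : Hyp (sfo F n) L a :=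
    { hf := sfo_symp
      le := hLG
      a0 := ha
      X := fun w hw => by
        obtain ⟨l, hl⟩ := hX w hw
        exact ⟨l, hXL hl⟩
      irr := hirr
      dim := by rw [hι]; omega }
  by_cases htr : ∃ k, k ≠ 0 ∧ tr H.hf a k ∈ L
  · obtain ⟨k, hk, ht⟩ := htr
    exact Or.inl (H.case_tr hk ht)
  push Not at htr
  have HK : HypK (sfo F n) L a := { toHyp := H, K0 := fun k hk => by
                                      by_contra h
                                      exact htr k h hk }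
  right
  by_cases hM : ∀ p b : Fin n ⊕ Fin n → F, GG L a p → GG L a b → sfo F n b p ≠ 0 → ∀ e : F,
      GG L a (b + e • p) → e = 0
  · left
    have HM : HypM (sfo F n) L a := { toHypK := HK, m1 := hM }
    exact HM.final
  · push Not at hM
    obtain ⟨p, b, hp, hb, hbp, e, he, he0⟩ := hM
    by_cases hbig : 6 ≤ Fintype.card (Fin n ⊕ Fin n) ∨ 2 < Fintype.card F
    · exact absurd (HK.M1 hbig hp hb hbp he) he0
    · push Not at hbig
      rw [hι] at hbig
      have hn2 : n = 2 := by omega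
      have hq : Fintype.card F = 2 := by
        have := Fintype.one_lt_card (α := F)
        omega
      right
      refine ⟨hq, hn2, ?_⟩
      subst hn2
      obtain ⟨e6⟩ := exists_perm_six hq
      exact (HK.toHypE hq hι hp hb hbp he0 he).final e6

end Cfsg.Agent.H2.SP
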