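import Cfsg.Agent.H2.SP.Base

/-!
The orbit of a singular point, transvections in the group, and the symplectic case.
-/

set_option autoImplicit false
set_option linter.all false

namespace Cfsg.Agent.H2.SP

open Matrix Cfsg.Geo Cfsg.Agent.GeoMax Cfsg.Agent.GeoMax.Symp
open scoped MatrixGroups

variable {ι : Type} [Fintype ι] [DecidableEq ι] {F : Type*} [Field F] [Fintype F] [h2 : CharP F 2]
variable {f : (ι → F) → (ι → F) → F} {L : Subgroup (GL ι F)} {a : ι → F}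

/-- the standing hypotheses -/
structure Hyp (f : (ι → F) → (ι → F) → F) (L : Subgroup (GL ι F)) (a : ι → F) : Prop where
  hf : IsSymplecticForm f
  le : L ≤ isoGL f
  a0 : a ≠ 0
  X : ∀ w, f w a = 0 → ∃ l, rho hf a w l ∈ L
  irr : ∀ W : Submodule F (ι → F), (∀ g ∈ L, ∀ w ∈ W, g.1 *ᵥ w ∈ W) → W = ⊥ ∨ W = ⊤
  dim : 4 ≤ Fintype.card ι

/-- the vectors proportional to a vector of the orbit of `a` -/
def GG (L : Subgroup (GL ι F)) (a v : ι → F) : Prop := ∃ c : F, c ≠ 0 ∧ ∃ g ∈ L, v = c • (g.1 *ᵥ a)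

theorem GG.self : GG L a a := ⟨1, one_ne_zero, 1, L.one_mem, by simp⟩

theorem GG.smul {v : ι → F} (h : GG L a v) {c : F} (hc : c ≠ 0) : GG L a (c • v) := by
  obtain ⟨d, hd, g, hg, rfl⟩ := h
  exact ⟨c * d, mul_ne_zero hc hd, g, hg, by rw [smul_smul]⟩

theorem GG.mul {v : ι → F} (h : GG L a v) {g : GL ι F} (hg : g ∈ L) : GG L a (g.1 *ᵥ v) := by
  obtain ⟨d, hd, k, hk, rfl⟩ := h
  exact ⟨d, hd, g * k, L.mul_mem hg hk, by rw [gl_mul_mulVec, Matrix.mulVec_smul]⟩

theorem gl_ne_zero (g : GL ι F) {v : ι → F} (hv : v ≠ 0) : g.1 *ᵥ v ≠ 0 := by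
  intro h
  apply hv
  rw [← gl_inv_mulVec g v, h, Matrix.mulVec_zero]

theorem GG.ne0 {v : ι → F} (ha : a ≠ 0) (h : GG L a v) : v ≠ 0 := by
  obtain ⟨d, hd, k, hk, rfl⟩ := h
  exact smul_ne_zero hd (gl_ne_zero k ha)

theorem GG.rel {p d : ι → F} (hp : GG L a p) (hd : GG L a d) : ∃ c : F, c ≠ 0 ∧ ∃ g ∈ L, d = c • (g.1 *ᵥ p) := by
  obtain ⟨c1, h1, g1, hg1, rfl⟩ := hp
  obtain ⟨c2, h3, g2, hg2, rfl⟩ := hd
  refine ⟨c2 * c1⁻¹, mul_ne_zero h3 (inv_ne_zero h1), g2 * g1⁻¹, L.mul_mem hg2 (L.inv_mem hg1), ?_⟩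
  rw [gl_mul_mulVec, Matrix.mulVec_smul, gl_inv_mulVec, Matrix.mulVec_smul, smul_smul, mul_assoc, inv_mul_cancel₀ h1,
    mul_one]

theorem not_mem_span_symm {p d : ι → F} (hd : d ∉ Submodule.span F {p}) (hp : p ≠ 0) : p ∉ Submodule.span F {d} := by
  intro h
  obtain ⟨c, hc⟩ := Submodule.mem_span_singleton.1 h
  have hc0 : c ≠ 0 := by rintro rfl; apply hp; rw [← hc, zero_smul]
  exact hd (Submodule.mem_span_singleton.2 ⟨c⁻¹, by rw [← hc, smul_smul, inv_mul_cancel₀ hc0, one_smul]⟩)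

theorem exists_sq (c : F) : ∃ s : F, s * s = c := by
  obtain ⟨s, hs⟩ := FiniteField.isSquare_of_char_two (F := F) (by
    exact ringChar.eq F 2) c
  exact ⟨s, hs.symm⟩

namespace Hyp

variable (H : Hyp f L a)
include H

theorem mem_iso {g : GL ι F} (hg : g ∈ L) (u v : ι → F) : f (g.1 *ᵥ u) (g.1 *ᵥ v) = f u v :=
  mem_isoGL.1 (H.le hg) u v

theorem conj_mem {g : GL ι F} (hg : g ∈ L) {p w : ι → F} (h : f w p = 0) {l : F} (hl : rho H.hf p w l ∈ L) :
    rho H.hf (g.1 *ᵥ p) (g.1 *ᵥ w) l ∈ L := by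
  rw [← rho_conj H.hf (H.le hg) h]
  exact L.mul_mem (L.mul_mem hg hl) (L.inv_mem hg)

theorem tr_conj_mem {g : GL ι F} (hg : g ∈ L) {p : ι → F} {l : F} (hl : tr H.hf p l ∈ L) :
    tr H.hf (g.1 *ᵥ p) l ∈ L := by
  rw [← tr_conj H.hf (H.le hg)]
  exact L.mul_mem (L.mul_mem hg hl) (L.inv_mem hg)

theorem HX {p : ι → F} (hp : GG L a p) (w : ι → F) (hw : f w p = 0) : ∃ l, rho H.hf p w l ∈ L := by
  obtain ⟨c, hc, g, hg, rfl⟩ := hp
  have h0 : f w (g.1 *ᵥ a) = 0 := by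
    rw [smul_right H.hf] at hw
    exact (mul_eq_zero.1 hw).resolve_left hc
  have h1 : f (((g⁻¹ : GL ι F) : Matrix ι ι F) *ᵥ (c • w)) a = 0 := by
    rw [← H.mem_iso hg, gl_mulVec_inv, smul_left H.hf, h0, mul_zero]
  obtain ⟨l, hl⟩ := H.X _ h1
  have h3 := H.conj_mem hg h1 hl
  rw [gl_mulVec_inv] at h3
  refine ⟨(c * c)⁻¹ * l, ?_⟩
  rw [rho_smul H.hf h0]
  have : c * c * ((c * c)⁻¹ * l) = l := by field_simp
  rw [this]
  exact h3

theorem spans {v : ι → F} (hv : v ≠ 0) : ∃ p, GG L a p ∧ f v p ≠ 0 := by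
  by_contra hcon
  push Not at hcon
  let W : Submodule F (ι → F) :=
    { carrier := {x | ∀ p, GG L a p → f x p = 0}
      add_mem' := fun {x y} hx hy p hp => by rw [add_left H.hf, hx p hp, hy p hp, add_zero]
      zero_mem' := fun p _ => zero_left H.hf p
      smul_mem' := fun c x hx p hp => by rw [smul_left H.hf, hx p hp, mul_zero] }
  have hinv : ∀ g ∈ L, ∀ w ∈ W, g.1 *ᵥ w ∈ W := by
    intro g hg w hw p hp
    have h1 := hw _ (hp.mul (L.inv_mem hg))
    rw [← H.mem_iso hg] at h1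
    rwa [gl_mulVec_inv] at h1
  have hvW : v ∈ W := hcon
  rcases H.irr W hinv with h | h
  · rw [h] at hvW
    exact hv ((Submodule.mem_bot F).1 hvW)
  · obtain ⟨z, hz⟩ := exists_ne_zero H.hf H.a0
    apply hz
    rw [sy H.hf]
    have : z ∈ W := by rw [h]; trivial
    exact this a GG.self

theorem orth_move {p : ι → F} (hp : GG L a p) {d : ι → F} (hd : f d p = 0) (hdp : d ∉ Submodule.span F {p})
    (s : F) : ∃ g ∈ L, g.1 *ᵥ d = d + s • p := by
  obtain ⟨v, h1, h3⟩ := exists_dual H.hf _ hdp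
  have h4 := h1 p (Submodule.mem_span_singleton_self p)
  have h5 : f (s • v) p = 0 := by rw [smul_left H.hf, h4, mul_zero]
  obtain ⟨l, hl⟩ := H.HX hp (s • v) h5
  refine ⟨_, hl, ?_⟩
  rw [rho_mulVec H.hf h5, hd, smul_right H.hf, sy H.hf d v, h3]
  simp

theorem TS_of_orth {p d : ι → F} (hp : GG L a p) (hd : GG L a d) (h : f d p = 0)
    (hdp : d ∉ Submodule.span F {p}) {k : F} (hk : k ≠ 0) (ht : tr H.hf p k ∈ L) (c : F) : tr H.hf d c ∈ L := by
  by_cases hc : c = 0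
  · have : tr H.hf d c = 1 := by
      apply gl_ext; intro x; rw [tr_mulVec, hc]; simp
    rw [this]; exact L.one_mem
  obtain ⟨s, hs⟩ := exists_sq (k / c)
  have hs0 : s ≠ 0 := by
    rintro rfl
    rw [mul_zero] at hs
    exact (div_ne_zero hk hc) hs.symm
  obtain ⟨g, hg, hgd⟩ := H.orth_move hp h hdp s
  obtain ⟨g', hg', hgp⟩ := H.orth_move hd (by rw [sy H.hf, h]) (not_mem_span_symm hdp (hp.ne0 H.a0)) s⁻¹
  have h1 := H.tr_conj_mem hg' ht
  have h3 : g.1 *ᵥ d = s • (g'.1 *ᵥ p) := by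
    rw [hgd, hgp, smul_add, smul_smul, mul_inv_cancel₀ hs0, one_smul, add_comm]
  have h4 : tr H.hf (g.1 *ᵥ d) c ∈ L := by
    rw [h3, tr_smul, hs, div_mul_cancel₀ _ hc]
    exact h1
  have h5 := H.tr_conj_mem (L.inv_mem hg) h4
  rwa [gl_inv_mulVec] at h5

/-- pigeonhole -/
theorem exists_lam_zero {p : ι → F} (hp : GG L a p) {k : F} (hk : k ≠ 0) (ht : tr H.hf p k ∈ L) {w : ι → F}
    (hw : f w p = 0) : ∃ s : F, s ≠ 0 ∧ rho H.hf p (s • w) 0 ∈ L := by
  have h0 : ∀ s : F, f (s • w) p = 0 := fun s => by rw [smul_left H.hf, hw, mul_zero]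
  choose l hl using fun s : F => H.HX hp (s • w) (h0 s)
  have hni : ¬ Function.Injective (fun x : F × Bool => l x.1 + if x.2 then k else 0) := by
    intro hi
    have := Fintype.card_le_of_injective _ hi
    rw [Fintype.card_prod, Fintype.card_bool] at this
    have h1 : 0 < Fintype.card F := Fintype.card_pos
    omega
  rw [Function.Injective] at hni
  push Not at hni
  obtain ⟨⟨s, e⟩, ⟨s', e'⟩, h1, h3⟩ := hni
  simp only at h1
  have hss : s ≠ s' := by
    rintro rfl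
    apply h3
    have h4 : (if e then k else (0 : F)) = if e' then k else 0 := add_left_cancel h1
    cases e <;> cases e' <;> simp_all
  have hs0 : s + s' ≠ 0 := by
    intro h
    apply hss
    rw [← sub_eq_zero, CharTwo.sub_eq_add, h]
  refine ⟨s + s', hs0, ?_⟩
  have h4 := L.mul_mem (hl s) (hl s')
  rw [rho_mul H.hf (h0 s) (h0 s')] at h4
  have h5 : f (s • w) (s' • w) = 0 := by rw [smul_left H.hf, smul_right H.hf, self H.hf]; ring
  rw [h5, add_zero, ← add_smul] at h4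
  have h6 : l s + l s' = 0 ∨ l s + l s' = k := by
    have e1 : l s + l s' = (if e then k else 0) + (if e' then k else 0) := by
      linear_combination h1 + (l s' - (if e then k else (0 : F))) * (two0 : (2 : F) = 0)
    rw [e1]
    cases e <;> cases e' <;> simp [CharTwo.add_self_eq_zero]
  rcases h6 with h6 | h6
  · rwa [h6] at h4
  · rw [h6] at h4
    have h7 := L.mul_mem h4 ht
    rw [← rho_zero H.hf p k, rho_mul H.hf (h0 _) (zero_left H.hf p), add_zero, zero_right H.hf, add_zero,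
      CharTwo.add_self_eq_zero] at h7
    exact h7

theorem orth_of_lam_zero {p b w : ι → F} (hp : GG L a p) (hb : GG L a b) (hbp : f b p ≠ 0) (hw0 : w ≠ 0)
    (hwp : f w p = 0) (hwb : f w b = 0) (hl : rho H.hf p w 0 ∈ L) :
    GG L a (b + f b p • w) ∧ f (b + f b p • w) b = 0 ∧ (b + f b p • w) ∉ Submodule.span F {b} ∧ GG L a w := by
  have h1 := hb.mul hl
  rw [rho_mulVec H.hf hwp, sy H.hf b w, hwb] at h1
  simp only [zero_smul, add_zero, zero_mul] at h1
  have h3 : f (b + f b p • w) b = 0 := by rw [add_left H.hf, smul_left H.hf, self H.hf, hwb]; ring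
  have h4 : (b + f b p • w) ∉ Submodule.span F {b} := by
    intro h
    obtain ⟨c, hc⟩ := Submodule.mem_span_singleton.1 h
    have h5 : f (c • b) p = f (b + f b p • w) p := by rw [hc]
    rw [smul_left H.hf, add_left H.hf, smul_left H.hf, hwp, mul_zero, add_zero] at h5
    have h6 : c = 1 := by
      have : (c - 1) * f b p = 0 := by linear_combination h5
      rcases mul_eq_zero.1 this with h | h
      · exact sub_eq_zero.1 h
      · exact absurd h hbp
    rw [h6, one_smul] at hc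
    have h7 : f b p • w = 0 := by
      have := congrArg (fun z => z - b) hc
      simpa using this.symm
    rcases smul_eq_zero.1 h7 with h | h
    · exact hbp h
    · exact hw0 h
  refine ⟨h1, h3, h4, ?_⟩
  obtain ⟨g, hg, hgd⟩ := H.orth_move hb h3 h4 1
  have h8 := h1.mul hg
  rw [hgd, one_smul, add_comm b, add_assoc, vv, add_zero] at h8
  have h9 := h8.smul (inv_ne_zero hbp)
  rwa [smul_smul, inv_mul_cancel₀ hbp, one_smul] at h9

theorem exists_b : ∃ b, GG L a b ∧ f b a ≠ 0 := by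
  obtain ⟨b, hb, h⟩ := H.spans H.a0
  exact ⟨b, hb, by rwa [sy H.hf]⟩

theorem exists_w (p b : ι → F) : ∃ w, w ≠ 0 ∧ f w p = 0 ∧ f w b = 0 := by
  obtain ⟨w, h1, h3⟩ := exists_perp H.hf ![p, b] (⊥ : Submodule F (ι → F)) (by
    rw [finrank_bot]; have := H.dim; omega)
  refine ⟨w, fun h => h1 (by rw [h]; exact Submodule.zero_mem _), ?_, ?_⟩
  · simpa using h3 0
  · simpa using h3 1

/-- If the group contains a transvection with centre `a` then it is the symplectic group. -/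
theorem case_tr {k : F} (hk : k ≠ 0) (ht : tr H.hf a k ∈ L) : L = isoGL f := by
  obtain ⟨b, hb, hba⟩ := H.exists_b
  obtain ⟨w, hw0, hwa, hwb⟩ := H.exists_w a b
  obtain ⟨s, hs0, hs⟩ := H.exists_lam_zero GG.self hk ht hwa
  have hbt : ∃ k' : F, k' ≠ 0 ∧ tr H.hf b k' ∈ L := by
    obtain ⟨c, hc, g, hg, rfl⟩ := hb
    refine ⟨(c * c)⁻¹ * k, mul_ne_zero (inv_ne_zero (mul_ne_zero hc hc)) hk, ?_⟩
    rw [tr_smul]
    have : c * c * ((c * c)⁻¹ * k) = k := by field_simp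
    rw [this]
    exact H.tr_conj_mem hg ht
  obtain ⟨k', hk', ht'⟩ := hbt
  obtain ⟨h1, h3, h4, -⟩ := H.orth_of_lam_zero GG.self hb hba (smul_ne_zero hs0 hw0)
    (by rw [smul_left H.hf, hwa, mul_zero]) (by rw [smul_left H.hf, hwb, mul_zero]) hs
  -- all transvections with centre `d`, hence with centre `b`, hence with centre `a`
  have hT1 := H.TS_of_orth hb h1 h3 h4 hk' ht'
  have hT2 : ∀ c, tr H.hf b c ∈ L :=
    H.TS_of_orth h1 hb (by rw [sy H.hf, h3]) (not_mem_span_symm h4 (hb.ne0 H.a0)) one_ne_zero (hT1 1)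
  have hRS : ∀ p, GG L a p → RS H.hf L p := by
    intro p hp y c hy
    obtain ⟨e, he, g, hg, rfl⟩ := hb.rel hp
    have hT3 : ∀ c, tr H.hf (e • (g.1 *ᵥ b)) c ∈ L := by
      intro c
      rw [tr_smul]
      exact H.tr_conj_mem hg (hT2 _)
    obtain ⟨l, hl⟩ := H.HX hp y hy
    have h5 := L.mul_mem hl (hT3 (l + c))
    rw [← rho_zero H.hf, rho_mul H.hf hy (zero_left H.hf _), add_zero, zero_right H.hf, add_zero, ← add_assoc,
      CharTwo.add_self_eq_zero, zero_add] at h5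
    exact h5
  refine le_antisymm H.le (iso_le_of_TS H.hf L fun v => ?_)
  by_cases hv : v = 0
  · rw [hv]; exact TS.zero H.hf L
  · exact (RS_all (hRS a GG.self) (hRS b hb) hba v hv).TS

end Hyp

end Cfsg.Agent.H2.SP
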