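import Cfsg.Agent.H2.SP.Grp

/-!
The case without transvections centred at the orbit: the function `lam`.
-/

set_option autoImplicit false
set_option linter.all false

namespace Cfsg.Agent.H2.SP

open Matrix Cfsg.Geo Cfsg.Agent.GeoMax Cfsg.Agent.GeoMax.Symp
open scoped MatrixGroups

variable {ι : Type} [Fintype ι] [DecidableEq ι] {F : Type*} [Field F] [Fintype F] [h2 : CharP F 2]
variable {f : (ι → F) → (ι → F) → F} {L : Subgroup (GL ι F)} {a : ι → F}

/-- no transvection with centre `a` -/
structure HypK (f : (ι → F) → (ι → F) → F) (L : Subgroup (GL ι F)) (a : ι → F) : Prop extends Hyp f L a where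
  K0 : ∀ k, tr toHyp.hf a k ∈ L → k = 0

open Classical in
/-- the function `lam` -/
noncomputable def lam (hf : IsSymplecticForm f) (L : Subgroup (GL ι F)) (p w : ι → F) : F :=
  if h : ∃ l, rho hf p w l ∈ L then h.choose else 0

namespace HypK

variable (H : HypK f L a)
include H

theorem K0' {p : ι → F} (hp : GG L a p) {k : F} (h : tr H.hf p k ∈ L) : k = 0 := by
  obtain ⟨c, hc, g, hg, rfl⟩ := hp
  rw [tr_smul] at h
  have h1 := H.toHyp.tr_conj_mem (L.inv_mem hg) h
  rw [gl_inv_mulVec] at h1
  have h3 := H.K0 _ h1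
  rcases mul_eq_zero.1 h3 with h | h
  · exact absurd h (mul_ne_zero hc hc)
  · exact h

theorem uniq {p w : ι → F} (hp : GG L a p) (hw : f w p = 0) {l l' : F} (h : rho H.hf p w l ∈ L)
    (h' : rho H.hf p w l' ∈ L) : l = l' := by
  have h1 := L.mul_mem h h'
  rw [rho_mul H.hf hw hw, vv, self H.hf, add_zero, rho_zero] at h1
  have h3 := H.K0' hp h1
  rw [← sub_eq_zero, CharTwo.sub_eq_add, h3]

theorem lam_mem {p w : ι → F} (hp : GG L a p) (hw : f w p = 0) : rho H.hf p w (lam H.hf L p w) ∈ L := by
  have h := H.toHyp.HX hp w hw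
  rw [lam, dif_pos h]
  exact h.choose_spec

theorem lam_eq {p w : ι → F} (hp : GG L a p) (hw : f w p = 0) {l : F} (h : rho H.hf p w l ∈ L) :
    lam H.hf L p w = l := H.uniq hp hw (H.lam_mem hp hw) h

theorem lam_add {p w w' : ι → F} (hp : GG L a p) (hw : f w p = 0) (hw' : f w' p = 0) :
    lam H.hf L p (w + w') = lam H.hf L p w + lam H.hf L p w' + f w w' := by
  refine H.lam_eq hp (by rw [add_left H.hf, hw, hw', add_zero]) ?_
  rw [← rho_mul H.hf hw hw']
  exact L.mul_mem (H.lam_mem hp hw) (H.lam_mem hp hw')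

theorem lam_conj {p w : ι → F} (hp : GG L a p) (hw : f w p = 0) {g : GL ι F} (hg : g ∈ L) :
    lam H.hf L (g.1 *ᵥ p) (g.1 *ᵥ w) = lam H.hf L p w :=
  H.lam_eq (hp.mul hg) (by rw [H.toHyp.mem_iso hg, hw]) (H.toHyp.conj_mem hg hw (H.lam_mem hp hw))

theorem lam_smul_left {p w : ι → F} (hp : GG L a p) (hw : f w p = 0) {c : F} (hc : c ≠ 0) :
    c * c * lam H.hf L (c • p) w = lam H.hf L p (c • w) := by
  symm
  refine H.lam_eq hp (by rw [smul_left H.hf, hw, mul_zero]) ?_
  rw [← rho_smul H.hf hw]
  exact H.lam_mem (hp.smul hc) (by rw [smul_right H.hf, hw, mul_zero])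

theorem lam_zero {p : ι → F} (hp : GG L a p) : lam H.hf L p 0 = 0 :=
  H.lam_eq hp (zero_left H.hf p) (by rw [rho_zero']; exact L.one_mem)

theorem lam_add_self {p w : ι → F} (hp : GG L a p) (hw : f w p = 0) (c : F) :
    lam H.hf L p (w + c • p) = lam H.hf L p w := by
  refine H.lam_eq hp (by rw [add_left H.hf, smul_left H.hf, self H.hf, hw]; ring) ?_
  rw [rho_add_self H.hf hw]
  exact H.lam_mem hp hw

theorem lam_self {p : ι → F} (hp : GG L a p) (c : F) : lam H.hf L p (c • p) = 0 := by
  have := H.lam_add_self hp (zero_left H.hf p) c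
  rwa [zero_add, H.lam_zero hp] at this

/-- Orthogonal pairs, dimension at least six. -/
theorem orth_lam_six {p d : ι → F} (hp : GG L a p) (hd : GG L a d) (h : f d p = 0)
    (hdp : d ∉ Submodule.span F {p}) (h6 : 6 ≤ Fintype.card ι) : lam H.hf L p d = 0 := by
  have hpd : f p d = 0 := by rw [sy H.hf, h]
  obtain ⟨u, hu, hS⟩ := exists_perp H.hf ![p, d] (Submodule.span F {p, d}) (by
    classical
    have := finrank_span_finset_le_card (R := F) ({p, d} : Finset (ι → F))
    have h3 := Finset.card_le_two (a := p) (b := d)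
    rw [Finset.coe_pair] at this
    rw [Set.finrank] at this
    omega)
  have hup : f u p = 0 := by simpa using hS 0
  have hud : f u d = 0 := by simpa using hS 1
  have hpu : f p u = 0 := by rw [sy H.hf, hup]
  obtain ⟨v, h1, h3⟩ := exists_dual H.hf _ hu
  have hvp : f v p = 0 := h1 p (Submodule.subset_span (by simp))
  have hvd : f v d = 0 := h1 d (Submodule.subset_span (by simp))
  have hm := H.lam_mem hd hud
  have h4 := H.lam_conj hp hvp hm
  rw [rho_mulVec H.hf hud, rho_mulVec H.hf hud, hpd, hpu, hvd, h3] at h4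
  simp only [zero_smul, add_zero, mul_zero, one_smul] at h4
  rw [H.lam_add hp hvp h, hvd, add_zero] at h4
  exact left_eq_add.1 h4.symm

/-- Orthogonal pairs: the key formula in general. -/
theorem orth_key {p d : ι → F} (hp : GG L a p) (hd : GG L a d) (h : f d p = 0)
    (hdp : d ∉ Submodule.span F {p}) (r s : F) :
    lam H.hf L p ((lam H.hf L d (r • p) * s) • d) = lam H.hf L d (r • p) * s * s := by
  have hpd : f p d = 0 := by rw [sy H.hf, h]
  have hrp : f (r • p) d = 0 := by rw [smul_left H.hf, hpd, mul_zero]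
  obtain ⟨v0, h1, h3⟩ := exists_dual H.hf _ hdp
  have hv0p : f v0 p = 0 := h1 p (Submodule.mem_span_singleton_self p)
  set v := s • v0 with hv
  have hvp : f v p = 0 := by rw [hv, smul_left H.hf, hv0p, mul_zero]
  have hvd : f v d = s := by rw [hv, smul_left H.hf, h3, mul_one]
  set k := lam H.hf L d (r • p) with hk
  have hm := H.lam_mem hd hrp
  have h4 := H.lam_conj hp hvp hm
  rw [rho_mulVec H.hf hrp, rho_mulVec H.hf hrp, hpd, smul_right H.hf, self H.hf, hvd, smul_right H.hf, hvp] at h4
  simp only [zero_smul, add_zero, mul_zero] at h4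
  rw [← hk] at h4
  have e1 : v + s • r • p + (k * s) • d = v + (k * s) • d + (s * r) • p := by rw [smul_smul]; abel
  have h5 : f ((k * s) • d) p = 0 := by rw [smul_left H.hf, h, mul_zero]
  rw [e1, H.lam_add_self hp (by rw [add_left H.hf, hvp, h5, add_zero]), H.lam_add hp hvp h5, smul_right H.hf, hvd,
    add_assoc] at h4
  have h6 := left_eq_add.1 h4.symm
  have h7 : lam H.hf L p ((k * s) • d) = -(k * s * s) := by linear_combination h6
  rw [h7, CharTwo.neg_eq]

theorem orth_lam_q {p d : ι → F} (hp : GG L a p) (hd : GG L a d) (h : f d p = 0)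
    (hdp : d ∉ Submodule.span F {p}) (hq : 2 < Fintype.card F) : lam H.hf L p d = 0 := by
  by_contra hne
  have hpd : f p d = 0 := by rw [sy H.hf, h]
  have hpd' := not_mem_span_symm hdp (hp.ne0 H.a0)
  have K1 := H.orth_key hp hd h hdp
  have K2 := H.orth_key hd hp hpd hpd'
  set k0 := lam H.hf L p d with hk0
  -- lam d (t • p) = t² / k0
  have A : ∀ t, lam H.hf L d (t • p) = t * t / k0 := by
    intro t
    have := K2 1 (t / k0)
    rw [one_smul, ← hk0] at this
    have e : k0 * (t / k0) = t := by field_simp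
    rw [e] at this
    rw [this]; field_simp
  have hk1 : lam H.hf L d ((1 : F) • p) = 1 / k0 := by rw [A]; ring
  have B : ∀ t, lam H.hf L p (t • d) = t * t * k0 := by
    intro t
    have := K1 1 (t * k0)
    rw [hk1] at this
    have e : 1 / k0 * (t * k0) = t := by field_simp
    rw [e] at this
    rw [this]; ring
  -- contradiction
  have C : ∀ r : F, r ≠ 0 → r * r = 1 := by
    intro r hr
    have := K2 r 1
    rw [B, mul_one, mul_one, A] at this
    field_simp at this
    linear_combination this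
  have D : ∀ r : F, r = 0 ∨ r = 1 := by
    intro r
    by_cases hr : r = 0
    · exact Or.inl hr
    · right
      have h1 := C r hr
      have h3 : (r - 1) * (r - 1) = 0 := by linear_combination h1 + (1 - r) * (two0 : (2 : F) = 0)
      exact sub_eq_zero.1 (mul_self_eq_zero.1 h3)
  have : Fintype.card F ≤ 2 := by
    classical
    calc Fintype.card F = (Finset.univ : Finset F).card := rfl
      _ ≤ ({0, 1} : Finset F).card := Finset.card_le_card (fun x _ => by
          rcases D x with h | h <;> simp [h])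
      _ ≤ 2 := Finset.card_le_two
  omega

theorem orth_lam (hbig : 6 ≤ Fintype.card ι ∨ 2 < Fintype.card F) {p d : ι → F} (hp : GG L a p) (hd : GG L a d)
    (h : f d p = 0) (hdp : d ∉ Submodule.span F {p}) : lam H.hf L p d = 0 :=
  hbig.elim (H.orth_lam_six hp hd h hdp) (H.orth_lam_q hp hd h hdp)

/-- zeros of `lam` on `⟨p, b⟩^⊥` are in the orbit -/
theorem mem_of_lam_zero {p b w : ι → F} (hp : GG L a p) (hb : GG L a b) (hbp : f b p ≠ 0) (hw0 : w ≠ 0)
    (hwp : f w p = 0) (hwb : f w b = 0) (hl : lam H.hf L p w = 0) : GG L a w := by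
  have h := H.lam_mem hp hwp
  rw [hl] at h
  exact (H.toHyp.orth_of_lam_zero hp hb hbp hw0 hwp hwb h).2.2.2

/-- the standard move: vectors in the orbit on each hyperbolic line through `p` -/
theorem move {p b : ι → F} (hp : GG L a p) (hb : GG L a b) (hbp : f b p ≠ 0) {v : ι → F} (hv : f v p ≠ 0)
    (e : F) (he : GG L a (b + e • p)) : ∃ r, GG L a (v + r • p) ∧ GG L a (v + (r + f v p / f b p * e) • p) := by
  set c := f v p / f b p with hc
  have hc0 : c ≠ 0 := div_ne_zero hv hbp
  -- w = (v - c b) / (c f b p)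
  set w := (f v p)⁻¹ • (v - c • b) with hw
  have hwp : f w p = 0 := by
    rw [hw, smul_left H.hf, sub_left H.hf, smul_left H.hf, hc]
    field_simp
    ring
  obtain ⟨l, hl⟩ := H.toHyp.HX hp w hwp
  have h1 := (hb.smul hc0).mul hl
  have h3 := (he.smul hc0).mul hl
  rw [rho_mulVec H.hf hwp] at h1 h3
  have e1 : f (c • b) p = f v p := by rw [smul_left H.hf, hc]; field_simp
  have e2 : f (c • (b + e • p)) p = f v p := by
    rw [smul_left H.hf, add_left H.hf, smul_left H.hf, self H.hf, mul_zero, add_zero, hc]; field_simp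
  have e3 : f v p • w = v - c • b := by rw [hw, smul_smul, mul_inv_cancel₀ hv, one_smul]
  have e4 : f (c • (b + e • p)) w = f (c • b) w := by
    rw [smul_left H.hf, smul_left H.hf, add_left H.hf, smul_left H.hf, sy H.hf p w, hwp, mul_zero, add_zero]
  rw [e1, e3] at h1
  rw [e2, e3, e4] at h3
  refine ⟨f (c • b) w + l * f v p, ?_, ?_⟩
  · have : c • b + (v - c • b) + f (c • b) w • p + (l * f v p) • p = v + (f (c • b) w + l * f v p) • p := by module
    rwa [this] at h1
  · have : c • (b + e • p) + (v - c • b) + f (c • b) w • p + (l * f v p) • p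
        = v + (f (c • b) w + l * f v p + c * e) • p := by module
    rwa [this] at h3

end HypK

end Cfsg.Agent.H2.SP
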