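import Cfsg.Agent.H2.SP.Two

/-!
The quadratic form.
-/

set_option autoImplicit false
set_option linter.all false

namespace Cfsg.Agent.H2.SP

open Matrix Cfsg.Geo Cfsg.Agent.GeoMax Cfsg.Agent.GeoMax.Symp
open scoped MatrixGroups

variable {ι : Type} [Fintype ι] [DecidableEq ι] {F : Type*} [Field F] [Fintype F] [h2 : CharP F 2]
variable {f : (ι → F) → (ι → F) → F} {L : Subgroup (GL ι F)} {a : ι → F}

/-- each hyperbolic line has at most two points -/
structure HypM (f : (ι → F) → (ι → F) → F) (L : Subgroup (GL ι F)) (a : ι → F) : Prop extends HypK f L a where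
  m1 : ∀ p b : ι → F, GG L a p → GG L a b → f b p ≠ 0 → ∀ e : F, GG L a (b + e • p) → e = 0

/-- Hua's identity argument. -/
theorem hua {A B : F → F} (hA : ∀ x y, A (x + y) = A x + A y) (hB : ∀ x y, B (x + y) = B x + B y)
    (h : ∀ y, y ≠ 0 → A y = y * B y⁻¹) (y : F) : A (y * y) = y * A 1 := by
  have hA0 : A 0 = 0 := by
    have := hA 0 0
    rw [add_zero] at this
    exact (left_eq_add.1 this)
  by_cases hy : y = 0
  · rw [hy, mul_zero, hA0, zero_mul]
  by_cases hy1 : y + 1 = 0
  · have : y = 1 := by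
      have h1 : y - 1 = 0 := by rw [CharTwo.sub_eq_add, hy1]
      exact sub_eq_zero.1 h1
    rw [this]; simp
  -- B (1/y) = A y / y
  have e : ∀ z, z ≠ 0 → B z⁻¹ = A z / z := by
    intro z hz
    rw [h z hz]
    field_simp
  have hyy : y * (y + 1) ≠ 0 := mul_ne_zero hy hy1
  have e1 := e y hy
  have e2 := e (y + 1) hy1
  have e3 := e (y * (y + 1)) hyy
  have e4 : (y * (y + 1))⁻¹ = y⁻¹ + (y + 1)⁻¹ := by
    field_simp
    linear_combination (-y) * (two0 : (2 : F) = 0)
  rw [e4, hB, e1, e2, hA y 1] at e3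
  have e5 : A (y * (y + 1)) = A (y * y) + A y := by rw [mul_add, mul_one, hA]
  rw [e5] at e3
  field_simp at e3
  rw [pow_two] at e3
  linear_combination (-1 : F) * e3 + (y * A y) * (two0 : (2 : F) = 0)

namespace HypM

variable (H : HypM f L a)
include H

theorem F1 {p b w : ι → F} (hp : GG L a p) (hb : GG L a b) (hbp : f b p = 1) (hwp : f w p = 0) (hwb : f w b = 0) :
    GG L a (b + w + lam H.hf L p w • p) := by
  have h := hb.mul (H.toHypK.lam_mem hp hwp)
  rw [rho_mulVec H.hf hwp, hbp, sy H.hf b w, hwb] at h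
  simpa using h

theorem F2 {p b w : ι → F} (hp : GG L a p) (hb : GG L a b) (hbp : f b p = 1) (hwp : f w p = 0) (hwb : f w b = 0)
    (hw0 : w ≠ 0) : lam H.hf L p w = 0 ↔ GG L a w := by
  have hbp' : f b p ≠ 0 := by rw [hbp]; exact one_ne_zero
  constructor
  · exact H.toHypK.mem_of_lam_zero hp hb hbp' hw0 hwp hwb
  · intro hw
    have hns : w ∉ Submodule.span F {b} := by
      apply not_mem_span_of_perp H.hf (b := p) _ hwp hw0
      rw [sy H.hf]; exact hbp'
    obtain ⟨g, hg, hgw⟩ := H.toHyp.orth_move hb hwb hns 1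
    have h1 := hw.mul hg
    rw [hgw, one_smul, add_comm] at h1
    exact H.m1 p (b + w) hp h1 (by rw [add_left H.hf, hwp, add_zero]; exact hbp') _ (H.F1 hp hb hbp hwp hwb)

theorem F2' {p b w : ι → F} (hp : GG L a p) (hb : GG L a b) (hbp : f b p = 1) (hwp : f w p = 0) (hwb : f w b = 0)
    (hw : GG L a w) (t : F) : lam H.hf L p (t • w) = 0 := by
  by_cases ht : t = 0
  · rw [ht, zero_smul, H.toHypK.lam_zero hp]
  · exact (H.F2 hp hb hbp (by rw [smul_left H.hf, hwp, mul_zero]) (by rw [smul_left H.hf, hwb, mul_zero])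
      (smul_ne_zero ht (hw.ne0 H.a0))).2 (hw.smul ht)

theorem exists_on {u w : ι → F} (hu : GG L a u) (huw : f u w ≠ 0) : ∃ r : F, GG L a (w + r • u) := by
  obtain ⟨b, hb, hub⟩ := H.toHyp.spans (hu.ne0 H.a0)
  obtain ⟨r, h1, -⟩ := H.toHypK.move hu hb (by rw [sy H.hf]; exact hub) (v := w) (by rw [sy H.hf]; exact huw) 0
    (by rw [zero_smul, add_zero]; exact hb)
  exact ⟨r, h1⟩

/-- homogeneity when there is a further orbit point in the perp of the pair -/
theorem hom1 {p b : ι → F} (hp : GG L a p) (hb : GG L a b) (hbp : f b p = 1) {u0 : ι → F} (hu0 : GG L a u0)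
    (hu0p : f u0 p = 0) (hu0b : f u0 b = 0) {w : ι → F} (hwp : f w p = 0) (hwb : f w b = 0) (hw0 : w ≠ 0) :
    ∃ k : F, ∀ s : F, lam H.hf L p (s • w) = s * s * k ∧ lam H.hf L b (s • w) = s * s * k := by
  have hbp' : f b p ≠ 0 := by rw [hbp]; exact one_ne_zero
  have hpb : f p b = 1 := by rw [sy H.hf, hbp]
  have hu : ∃ u, GG L a u ∧ f u p = 0 ∧ f u b = 0 ∧ f u w ≠ 0 := by
    by_cases h0 : f u0 w = 0
    swap
    · exact ⟨u0, hu0, hu0p, hu0b, h0⟩
    -- find `v` in the perp with `f v w = 1`, `f v u0 ≠ 0`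
    have hex : ∃ v, f v p = 0 ∧ f v b = 0 ∧ f v w ≠ 0 ∧ f v u0 ≠ 0 := by
      obtain ⟨v1, h1, h3⟩ := exists_dual H.hf _ (not_mem_span_pair H.hf hbp' hwp hwb hw0)
      obtain ⟨v2, h4, h5⟩ := exists_dual H.hf _ (not_mem_span_pair H.hf hbp' hu0p hu0b (hu0.ne0 H.a0))
      have a1 : f v1 p = 0 := h1 p (Submodule.subset_span (by simp))
      have a2 : f v1 b = 0 := h1 b (Submodule.subset_span (by simp))
      have a3 : f v2 p = 0 := h4 p (Submodule.subset_span (by simp))
      have a4 : f v2 b = 0 := h4 b (Submodule.subset_span (by simp))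
      by_cases h6 : f v1 u0 = 0
      · by_cases h7 : f v2 w = 0
        · refine ⟨v1 + v2, ?_, ?_, ?_, ?_⟩
          · rw [add_left H.hf, a1, a3, add_zero]
          · rw [add_left H.hf, a2, a4, add_zero]
          · rw [add_left H.hf, h3, h7, add_zero]; exact one_ne_zero
          · rw [add_left H.hf, h6, h5, zero_add]; exact one_ne_zero
        · exact ⟨v2, a3, a4, h7, by rw [h5]; exact one_ne_zero⟩
      · exact ⟨v1, a1, a2, by rw [h3]; exact one_ne_zero, h6⟩
    obtain ⟨v, h1, h3, h4, h5⟩ := hex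
    obtain ⟨r, hr⟩ := H.exists_on hu0 (w := v) (by rw [sy H.hf]; exact h5)
    refine ⟨_, hr, ?_, ?_, ?_⟩
    · rw [add_left H.hf, smul_left H.hf, h1, hu0p]; ring
    · rw [add_left H.hf, smul_left H.hf, h3, hu0b]; ring
    · rw [add_left H.hf, smul_left H.hf, h0, mul_zero, add_zero]; exact h4
  obtain ⟨u, hu, hup, hub, huw⟩ := hu
  obtain ⟨r, hr⟩ := H.exists_on hu huw
  have hrp : f (w + r • u) p = 0 := by rw [add_left H.hf, smul_left H.hf, hwp, hup]; ring
  have hrb : f (w + r • u) b = 0 := by rw [add_left H.hf, smul_left H.hf, hwb, hub]; ring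
  refine ⟨r * f w u, fun s => ?_⟩
  have e : s • w = s • (w + r • u) + (s * r) • u := by
    ext i
    simp only [Pi.add_apply, Pi.smul_apply, smul_eq_mul]
    linear_combination (-(s * r * u i)) * (two0 : (2 : F) = 0)
  have e1 : f (s • (w + r • u)) ((s * r) • u) = s * s * (r * f w u) := by
    simp only [smul_left H.hf, smul_right H.hf, add_left H.hf, self H.hf]; ring
  constructor
  · rw [e, H.toHypK.lam_add hp (by rw [smul_left H.hf, hrp, mul_zero]) (by rw [smul_left H.hf, hup, mul_zero]),
      H.F2' hp hb hbp hrp hrb hr, H.F2' hp hb hbp hup hub hu, e1]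
    ring
  · rw [e, H.toHypK.lam_add hb (by rw [smul_left H.hf, hrb, mul_zero]) (by rw [smul_left H.hf, hub, mul_zero]),
      H.F2' hb hp hpb hrb hrp hr, H.F2' hb hp hpb hub hup hu, e1]
    ring

/-- homogeneity when there is no further orbit point in the perp of the pair -/
theorem hom2 {p b : ι → F} (hp : GG L a p) (hb : GG L a b) (hbp : f b p = 1)
    (hno : ∀ u, GG L a u → f u p = 0 → f u b ≠ 0) {w : ι → F} (hwp : f w p = 0) (hwb : f w b = 0) (hw0 : w ≠ 0) :
    ∃ k : F, ∀ s : F, lam H.hf L p (s • w) = s * s * k ∧ lam H.hf L b (s • w) = s * s * k := by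
  have hbp' : f b p ≠ 0 := by rw [hbp]; exact one_ne_zero
  have hpb : f p b = 1 := by rw [sy H.hf, hbp]
  have hsp : ∀ s : F, f (s • w) p = 0 := fun s => by rw [smul_left H.hf, hwp, mul_zero]
  have hsb : ∀ s : F, f (s • w) b = 0 := fun s => by rw [smul_left H.hf, hwb, mul_zero]
  have hadd : ∀ q, GG L a q → (∀ s : F, f (s • w) q = 0) → ∀ s t : F,
      lam H.hf L q ((s + t) • w) = lam H.hf L q (s • w) + lam H.hf L q (t • w) := by
    intro q hq hs s t
    rw [add_smul, H.toHypK.lam_add hq (hs s) (hs t), smul_left H.hf, smul_right H.hf, self H.hf]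
    ring
  have h1 : ∀ s : F, lam H.hf L p (s • w) = 0 → s = 0 := by
    intro s hs
    by_contra hs0
    exact hno _ ((H.F2 hp hb hbp (hsp s) (hsb s) (smul_ne_zero hs0 hw0)).1 hs) (hsp s) (hsb s)
  have h3 : ∀ s : F, lam H.hf L b (s • w) = 0 → s = 0 := by
    intro s hs
    by_contra hs0
    exact hno _ ((H.F2 hb hp hpb (hsb s) (hsp s) (smul_ne_zero hs0 hw0)).1 hs) (hsp s) (hsb s)
  have hinj : ∀ q, GG L a q → (∀ s : F, f (s • w) q = 0) → (∀ s : F, lam H.hf L q (s • w) = 0 → s = 0) →
      Function.Injective (fun s : F => lam H.hf L q (s • w)) := by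
    intro q hq hs hz s t hst
    simp only at hst
    have : lam H.hf L q ((s + t) • w) = 0 := by rw [hadd q hq hs, hst, CharTwo.add_self_eq_zero]
    have h5 := hz _ this
    rw [← sub_eq_zero, CharTwo.sub_eq_add, h5]
  have hi1 := hinj p hp hsp h1
  have hi2 := hinj b hb hsb h3
  have hs1 := Finite.injective_iff_surjective.1 hi1
  have hs2 := Finite.injective_iff_surjective.1 hi2
  choose A hA using hs1
  choose B hB using hs2
  simp only at hA hB hi1 hi2
  have hAadd : ∀ x y, A (x + y) = A x + A y := fun x y => hi1 (by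
    simp only [hA, hadd p hp hsp])
  have hBadd : ∀ x y, B (x + y) = B x + B y := fun x y => hi2 (by
    simp only [hB, hadd b hb hsb])
  have hAB : ∀ y, y ≠ 0 → A y = y * B y⁻¹ := by
    intro y hy
    apply hi1
    simp only [hA]
    -- F1' with s = B y⁻¹
    set s := B y⁻¹ with hs
    have e1 := H.F1 hb hp hpb (hsb s) (hsp s)
    rw [hs, hB, ← hs] at e1
    have e2 := e1.smul hy
    have e3 : y • (p + s • w + y⁻¹ • b) = b + (y * s) • w + y • p := by
      rw [smul_add, smul_add, smul_smul, smul_smul, mul_inv_cancel₀ hy, one_smul]; abel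
    rw [e3] at e2
    have e4 := H.F1 hp hb hbp (hsp (y * s)) (hsb (y * s))
    have e5 : b + (y * s) • w + y • p = (b + (y * s) • w + lam H.hf L p ((y * s) • w) • p)
        + (y - lam H.hf L p ((y * s) • w)) • p := by module
    rw [e5] at e2
    have e6 := H.m1 p _ hp e4 (by
      rw [add_left H.hf, add_left H.hf, smul_left H.hf, smul_left H.hf, self H.hf, hwp, hbp]
      simp) _ e2
    linear_combination e6
  have hBA : ∀ y, y ≠ 0 → B y = y * A y⁻¹ := by
    intro y hy
    have := hAB y⁻¹ (inv_ne_zero hy)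
    rw [this, inv_inv, ← mul_assoc, mul_inv_cancel₀ hy, one_mul]
  have hu1 := hua hAadd hBadd hAB
  have hu2 := hua hBadd hAadd hBA
  have hA1 : A 1 = B 1 := by have := hAB 1 one_ne_zero; simpa using this
  have hA10 : A 1 ≠ 0 := by
    intro h
    have := hA 1
    rw [h, zero_smul, H.toHypK.lam_zero hp] at this
    exact zero_ne_one this
  refine ⟨1 / (A 1 * A 1), fun s => ⟨?_, ?_⟩⟩
  · have := hA ((s / A 1) * (s / A 1))
    rw [hu1, div_mul_cancel₀ _ hA10] at this
    rw [this]; field_simp
  · have := hB ((s / A 1) * (s / A 1))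
    rw [hu2, ← hA1, div_mul_cancel₀ _ hA10] at this
    rw [this]; field_simp

theorem hom {p b : ι → F} (hp : GG L a p) (hb : GG L a b) (hbp : f b p = 1)
    {w : ι → F} (hwp : f w p = 0) (hwb : f w b = 0) (s : F) :
    lam H.hf L p (s • w) = s * s * lam H.hf L p w ∧ lam H.hf L b w = lam H.hf L p w := by
  by_cases hw0 : w = 0
  · rw [hw0, smul_zero, H.toHypK.lam_zero hp, H.toHypK.lam_zero hb]; simp
  have key : ∃ k : F, ∀ s : F, lam H.hf L p (s • w) = s * s * k ∧ lam H.hf L b (s • w) = s * s * k := by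
    by_cases hex : ∃ u, GG L a u ∧ f u p = 0 ∧ f u b = 0
    · obtain ⟨u, hu, h1, h3⟩ := hex
      exact H.hom1 hp hb hbp hu h1 h3 hwp hwb hw0
    · push Not at hex
      exact H.hom2 hp hb hbp hex hwp hwb hw0
  obtain ⟨k, hk⟩ := key
  have h1 := hk 1
  rw [one_smul, mul_one, one_mul] at h1
  exact ⟨by rw [(hk s).1, h1.1], by rw [h1.2, h1.1]⟩

/-- the quadratic form -/
theorem exists_quad : ∃ Q : QuadraticForm F (ι → F), (∀ u v, QuadraticMap.polar ⇑Q u v = f u v) ∧
    (∀ v, v ≠ 0 → (Q v = 0 ↔ GG L a v)) := by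
  obtain ⟨b, hb, hba⟩ : ∃ b, GG L a b ∧ f b a = 1 := by
    obtain ⟨b0, hb0, hb0a⟩ := H.toHyp.exists_b
    exact ⟨(f b0 a)⁻¹ • b0, hb0.smul (inv_ne_zero hb0a), by rw [smul_left H.hf, inv_mul_cancel₀ hb0a]⟩
  have hab : f a b = 1 := by rw [sy H.hf, hba]
  have ha : GG L a a := GG.self
  let pr : (ι → F) → (ι → F) := fun v => v + f v b • a + f v a • b
  have hpra : ∀ v, f (pr v) a = 0 := by
    intro v
    simp only [pr, add_left H.hf, smul_left H.hf, self H.hf, hba]
    linear_combination (f v a) * (two0 : (2 : F) = 0)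
  have hprb : ∀ v, f (pr v) b = 0 := by
    intro v
    simp only [pr, add_left H.hf, smul_left H.hf, self H.hf, hab]
    linear_combination (f v b) * (two0 : (2 : F) = 0)
  have hpradd : ∀ u v, pr (u + v) = pr u + pr v := by
    intro u v
    simp only [pr, add_left H.hf]; module
  have hprsmul : ∀ (c : F) v, pr (c • v) = c • pr v := by
    intro c v
    simp only [pr, smul_left H.hf]; module
  have hprf : ∀ u v, f (pr u) (pr v) = f u v + f u b * f v a + f u a * f v b := by
    intro u v
    simp only [pr, add_left H.hf, smul_left H.hf, add_right H.hf, smul_right H.hf, self H.hf, hab, hba,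
      sy H.hf a v, sy H.hf b v]
    linear_combination (f v a * f u b + f u a * f v b) * (two0 : (2 : F) = 0)
  let Bf : LinearMap.BilinMap F (ι → F) F := LinearMap.mk₂ F f
    (add_left H.hf) (fun c x y => smul_left H.hf c x y) (add_right H.hf) (fun c x y => smul_right H.hf c x y)
  let Q : QuadraticForm F (ι → F) :=
    { toFun := fun v => f v a * f v b + lam H.hf L a (pr v)
      toFun_smul := fun c v => by
        change f (c • v) a * f (c • v) b + lam H.hf L a (pr (c • v)) = (c * c) • (f v a * f v b + lam H.hf L a (pr v))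
        rw [hprsmul, (H.hom ha hb hba (hpra v) (hprb v) c).1, smul_left H.hf, smul_left H.hf, smul_eq_mul]
        ring
      exists_companion' := ⟨Bf, fun x y => by
        change f (x + y) a * f (x + y) b + lam H.hf L a (pr (x + y))
          = f x a * f x b + lam H.hf L a (pr x) + (f y a * f y b + lam H.hf L a (pr y)) + f x y
        rw [hpradd, H.toHypK.lam_add ha (hpra x) (hpra y), hprf, add_left H.hf, add_left H.hf]
        linear_combination (f x b * f y a + f x a * f y b) * (two0 : (2 : F) = 0)⟩ }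
  have hQ : ∀ v, Q v = f v a * f v b + lam H.hf L a (pr v) := fun v => rfl
  refine ⟨Q, fun u v => ?_, fun v hv => ?_⟩
  · rw [QuadraticMap.polar, hQ, hQ, hQ, hpradd, H.toHypK.lam_add ha (hpra u) (hpra v), hprf, add_left H.hf,
      add_left H.hf]
    linear_combination (f u b * f v a + f u a * f v b) * (two0 : (2 : F) = 0)
  · rw [hQ]
    have hvdec : v = f v b • a + f v a • b + pr v := by
      simp only [pr]
      ext i
      simp only [Pi.add_apply, Pi.smul_apply, smul_eq_mul]
      linear_combination (-(f v b * a i + f v a * b i)) * (two0 : (2 : F) = 0)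
    have hla : ∀ c : F, lam H.hf L a (c • pr v) = c * c * lam H.hf L a (pr v) := fun c =>
      (H.hom ha hb hba (hpra v) (hprb v) c).1
    have hlb : lam H.hf L b (pr v) = lam H.hf L a (pr v) := (H.hom ha hb hba (hpra v) (hprb v) 1).2
    have hlb' : ∀ c : F, lam H.hf L b (c • pr v) = c * c * lam H.hf L a (pr v) := by
      intro c
      rw [← hla c]
      exact (H.hom ha hb hba (w := c • pr v) (by rw [smul_left H.hf, hpra, mul_zero])
        (by rw [smul_left H.hf, hprb, mul_zero]) 1).2
    by_cases hβ : f v a = 0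
    · by_cases hα : f v b = 0
      · have hvp : pr v = v := by simp only [pr, hα, hβ]; simp
        rw [hvp, hβ, zero_mul, zero_add]
        exact H.F2 ha hb hba hβ hα hv
      · -- `v = α a + w`
        set α := f v b with hαd
        have e1 := H.F1 hb ha hab (w := α⁻¹ • pr v) (by rw [smul_left H.hf, hprb, mul_zero])
          (by rw [smul_left H.hf, hpra, mul_zero])
        have e2 := e1.smul hα
        rw [hlb'] at e2
        generalize lam H.hf L a (pr v) = M at e2 ⊢
        rw [hβ, zero_smul, add_zero] at hvdec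
        have e3 : α • (a + α⁻¹ • pr v + (α⁻¹ * α⁻¹ * M) • b) = v + (α⁻¹ * M) • b := by
          have e0 : v + (α⁻¹ * M) • b = (α • a + pr v) + (α⁻¹ * M) • b := congrArg (· + (α⁻¹ * M) • b) hvdec
          rw [e0, smul_add, smul_add, smul_smul, smul_smul, mul_inv_cancel₀ hα, one_smul]
          congr 2
          field_simp
        rw [e3] at e2
        rw [hβ, zero_mul, zero_add]
        constructor
        · intro h0
          rw [h0, mul_zero, zero_smul, add_zero] at e2
          exact e2
        · intro hg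
          have e4 := H.m1 b v hb hg (by rw [← hαd]; exact hα) _ e2
          rcases mul_eq_zero.1 e4 with h | h
          · exact absurd h (inv_ne_zero hα)
          · exact h
    · set β := f v a with hβd
      set α := f v b with hαd
      have e1 := H.F1 ha hb hba (w := β⁻¹ • pr v) (by rw [smul_left H.hf, hpra, mul_zero])
          (by rw [smul_left H.hf, hprb, mul_zero])
      have e2 := e1.smul hβ
      rw [hla] at e2
      generalize lam H.hf L a (pr v) = M at e2 ⊢
      have e3 : β • (b + β⁻¹ • pr v + (β⁻¹ * β⁻¹ * M) • a) = v + (α + β⁻¹ * M) • a := by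
          have e0 : v + (α + β⁻¹ * M) • a = (α • a + β • b + pr v) + (α + β⁻¹ * M) • a :=
            congrArg (· + (α + β⁻¹ * M) • a) hvdec
          have e00 : β * (β⁻¹ * β⁻¹ * M) = β⁻¹ * M := by field_simp
          rw [e0, smul_add, smul_add, smul_smul, smul_smul, mul_inv_cancel₀ hβ, one_smul, e00]
          ext i
          simp only [Pi.add_apply, Pi.smul_apply, smul_eq_mul]
          linear_combination (-(α * a i)) * (two0 : (2 : F) = 0)
      rw [e3] at e2
      constructor
      · intro h0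
        have : α + β⁻¹ * M = 0 := by
          have h1 : M = β * α := by
            linear_combination h0 - (β * α) * (two0 : (2 : F) = 0)
          rw [h1, ← mul_assoc, inv_mul_cancel₀ hβ, one_mul, CharTwo.add_self_eq_zero]
        rw [this, zero_smul, add_zero] at e2
        exact e2
      · intro hg
        have e4 := H.m1 a v ha hg (by rw [← hβd]; exact hβ) _ e2
        have e5 : β * (α + β⁻¹ * M) = 0 := by rw [e4, mul_zero]
        rw [mul_add, ← mul_assoc, mul_inv_cancel₀ hβ, one_mul] at e5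
        exact e5

end HypM

end Cfsg.Agent.H2.SP
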