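import Cfsg.Agent.H2.SP.Lam

/-!
Hyperbolic lines meet the orbit in at most two points.
-/

set_option autoImplicit false
set_option linter.all false

namespace Cfsg.Agent.H2.SP

open Matrix Cfsg.Geo Cfsg.Agent.GeoMax Cfsg.Agent.GeoMax.Symp
open scoped MatrixGroups

variable {ι : Type} [Fintype ι] [DecidableEq ι] {F : Type*} [Field F] [Fintype F] [h2 : CharP F 2]
variable {f : (ι → F) → (ι → F) → F} {L : Subgroup (GL ι F)} {a : ι → F}

theorem not_mem_span_of_perp (hf : IsSymplecticForm f) {p b y : ι → F} (hbp : f b p ≠ 0) (hy : f y b = 0)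
    (hy0 : y ≠ 0) : y ∉ Submodule.span F {p} := by
  intro h
  obtain ⟨c, rfl⟩ := Submodule.mem_span_singleton.1 h
  rw [smul_left hf, sy hf p b] at hy
  rcases mul_eq_zero.1 hy with h | h
  · exact hy0 (by rw [h, zero_smul])
  · exact hbp h

theorem not_mem_span_pair (hf : IsSymplecticForm f) {p b y : ι → F} (hbp : f b p ≠ 0) (hyp : f y p = 0)
    (hyb : f y b = 0) (hy0 : y ≠ 0) : y ∉ Submodule.span F {p, b} := by
  intro h
  obtain ⟨c, d, rfl⟩ := Submodule.mem_span_pair.1 h
  rw [add_left hf, smul_left hf, smul_left hf, self hf, mul_zero, zero_add] at hyp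
  rw [add_left hf, smul_left hf, smul_left hf, self hf, mul_zero, add_zero, sy hf p b] at hyb
  rcases mul_eq_zero.1 hyp with h | h
  · rcases mul_eq_zero.1 hyb with h' | h'
    · exact hy0 (by rw [h, h', zero_smul, zero_smul, add_zero])
    · exact hbp h'
  · exact hbp h

namespace HypK

variable (H : HypK f L a)
include H

/-- More than two points on one hyperbolic line: the same for all lines. -/
theorem M2 {p b : ι → F} (hp : GG L a p) (hb : GG L a b) (hbp : f b p ≠ 0) {e : F} (he0 : e ≠ 0)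
    (he : GG L a (b + e • p)) {p' : ι → F} (hp' : GG L a p') {v : ι → F} (hv : f v p' ≠ 0) :
    ∃ r e' : F, e' ≠ 0 ∧ GG L a (v + r • p') ∧ GG L a (v + (r + e') • p') := by
  obtain ⟨c, hc, g, hg, rfl⟩ := hp.rel hp'
  have h1 : f (((g⁻¹ : GL ι F) : Matrix ι ι F) *ᵥ v) p ≠ 0 := by
    rw [← H.toHyp.mem_iso hg, gl_mulVec_inv]
    intro h
    apply hv
    rw [smul_right H.hf, h, mul_zero]
  obtain ⟨r, h3, h4⟩ := H.move hp hb hbp h1 e he
  have h5 := h3.mul hg
  have h6 := h4.mul hg
  rw [Matrix.mulVec_add, gl_mulVec_inv, Matrix.mulVec_smul] at h5 h6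
  set e0 := f (((g⁻¹ : GL ι F) : Matrix ι ι F) *ᵥ v) p / f b p * e with he0'
  have h7 : e0 ≠ 0 := mul_ne_zero (div_ne_zero h1 hbp) he0
  refine ⟨r / c, e0 / c, div_ne_zero h7 hc, ?_, ?_⟩
  · rw [smul_smul, div_mul_cancel₀ _ hc]; exact h5
  · rw [smul_smul, ← add_div, div_mul_cancel₀ _ hc]; exact h6

/-- orthogonal pairs exist -/
theorem exists_orth {p b : ι → F} (hp : GG L a p) (hb : GG L a b) (hbp : f b p ≠ 0) {e : F} (he0 : e ≠ 0)
    (he : GG L a (b + e • p)) : ∃ y y', GG L a y ∧ GG L a y' ∧ f y' y = 0 ∧ y' ∉ Submodule.span F {y} := by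
  obtain ⟨x, hx, hS⟩ := exists_perp H.hf ![p] (Submodule.span F {p}) (by
    have h1 := finrank_span_singleton (K := F) (hp.ne0 H.a0)
    have := H.dim
    omega)
  have hxp : f x p = 0 := by simpa using hS 0
  obtain ⟨v, h1, hvp⟩ := exists_dual H.hf _ (not_mem_span_symm hx (hp.ne0 H.a0))
  have hvx : f v x = 0 := h1 x (Submodule.mem_span_singleton_self x)
  have hx0 : x ≠ 0 := by rintro rfl; exact hx (Submodule.zero_mem _)
  have hvs : ∀ s : F, f (v + s • x) p ≠ 0 := by
    intro s
    rw [add_left H.hf, smul_left H.hf, hxp, mul_zero, add_zero, hvp]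
    exact one_ne_zero
  choose r e' he' hr hr' using fun s : F => H.M2 hp hb hbp he0 he hp (hvs s)
  have hni : ¬ Function.Injective (fun x : F × Bool => r x.1 + if x.2 then e' x.1 else 0) := by
    intro hi
    have := Fintype.card_le_of_injective _ hi
    rw [Fintype.card_prod, Fintype.card_bool] at this
    have h1 : 0 < Fintype.card F := Fintype.card_pos
    omega
  rw [Function.Injective] at hni
  push Not at hni
  obtain ⟨⟨s, i⟩, ⟨s', i'⟩, h3, h4⟩ := hni
  simp only at h3
  have hss : s ≠ s' := by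
    rintro rfl
    apply h4
    have h4 : (if i then e' s else (0 : F)) = if i' then e' s else 0 := add_left_cancel h3
    have := he' s
    cases i <;> cases i' <;> simp_all
  have hall : ∀ (s : F) (i : Bool), GG L a (v + s • x + (r s + if i then e' s else 0) • p) := by
    intro s i
    cases i
    · simpa using hr s
    · simpa using hr' s
  have hy := hall s i
  have hy' := hall s' i'
  rw [← h3] at hy'
  set t := r s + if i then e' s else 0
  refine ⟨_, _, hy, hy', ?_, ?_⟩
  · have e1 : f x v = 0 := by rw [sy H.hf, hvx]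
    have e2 : f p x = 0 := by rw [sy H.hf, hxp]
    have e3 : f p v = 1 := by rw [sy H.hf, hvp]
    simp only [add_left H.hf, add_right H.hf, smul_left H.hf, smul_right H.hf, self H.hf, hvx, hxp, e1, e2, e3, hvp]
    linear_combination t * (two0 : (2 : F) = 0)
  · intro hmem
    obtain ⟨c, hc⟩ := Submodule.mem_span_singleton.1 hmem
    have h5 := congrArg (fun z => f z p) hc
    simp only [add_left H.hf, smul_left H.hf, self H.hf, hxp, hvp] at h5
    have hc1 : c = 1 := by linear_combination h5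
    rw [hc1, one_smul] at hc
    have h6 : s • x = s' • x := by
      have := add_right_cancel hc
      exact add_left_cancel this
    exact hss (smul_left_injective F hx0 h6)

theorem M1 (hbig : 6 ≤ Fintype.card ι ∨ 2 < Fintype.card F) {p b : ι → F} (hp : GG L a p) (hb : GG L a b)
    (hbp : f b p ≠ 0) {e : F} (he : GG L a (b + e • p)) : e = 0 := by
  by_contra he0
  by_cases hu : ∃ u, GG L a u ∧ f u p = 0 ∧ f u b = 0
  · obtain ⟨u, hu, hup, hub⟩ := hu
    obtain ⟨v, h1, h3⟩ := exists_dual H.hf _ (not_mem_span_pair H.hf hbp hup hub (hu.ne0 H.a0))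
    have hvp : f v p = 0 := h1 p (Submodule.subset_span (by simp))
    have hvb : f v b = 0 := h1 b (Submodule.subset_span (by simp))
    obtain ⟨r, e', he', hy, hy'⟩ := H.M2 hp hb hbp he0 he hu (v := v) (by rw [h3]; exact one_ne_zero)
    have key : ∀ t : F, GG L a (v + t • u) → lam H.hf L p (v + t • u) = 0 := by
      intro t ht
      refine H.orth_lam hbig hp ht (by rw [add_left H.hf, smul_left H.hf, hup, hvp]; ring)
        (not_mem_span_of_perp H.hf hbp (by rw [add_left H.hf, smul_left H.hf, hub, hvb]; ring) (ht.ne0 H.a0))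
    have k1 := key _ hy
    have k2 := key _ hy'
    have k3 : lam H.hf L p (e' • u) = 0 := by
      have h4 := hu.smul he'
      exact H.orth_lam hbig hp h4 (by rw [smul_left H.hf, hup, mul_zero])
        (not_mem_span_of_perp H.hf hbp (by rw [smul_left H.hf, hub, mul_zero]) (h4.ne0 H.a0))
    rw [add_smul, ← add_assoc, H.lam_add hp (by rw [add_left H.hf, smul_left H.hf, hup, hvp]; ring)
      (by rw [smul_left H.hf, hup, mul_zero]), k1, k3] at k2
    simp only [add_left H.hf, smul_left H.hf, smul_right H.hf, self H.hf, h3] at k2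
    apply he'
    linear_combination k2
  · obtain ⟨y, y', hy, hy', hyy, hns⟩ := H.exists_orth hp hb hbp he0 he
    obtain ⟨c, hc, g, hg, h1⟩ := hy.rel hp
    -- transport to `p`
    have h3 : GG L a (g.1 *ᵥ y') := hy'.mul hg
    have h4 : f (g.1 *ᵥ y') p = 0 := by rw [h1, smul_right H.hf, H.toHyp.mem_iso hg, hyy, mul_zero]
    have h5 : g.1 *ᵥ y' ∉ Submodule.span F {p} := by
      intro h
      obtain ⟨d, hd⟩ := Submodule.mem_span_singleton.1 h
      apply hns
      refine Submodule.mem_span_singleton.2 ⟨d * c, ?_⟩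
      have h6 := congrArg (fun z => ((g⁻¹ : GL ι F) : Matrix ι ι F) *ᵥ z) hd
      rw [gl_inv_mulVec, h1, Matrix.mulVec_smul, Matrix.mulVec_smul, gl_inv_mulVec, smul_smul] at h6
      exact h6
    set s := f (g.1 *ᵥ y') b / f b p with hs
    obtain ⟨k, hk, hkd⟩ := H.toHyp.orth_move hp h4 h5 s
    refine hu ⟨_, h3.mul hk, ?_, ?_⟩
    · rw [hkd, add_left H.hf, smul_left H.hf, self H.hf, h4]; ring
    · rw [hkd, add_left H.hf, smul_left H.hf, sy H.hf p b, hs, div_mul_cancel₀ _ hbp, CharTwo.add_self_eq_zero]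

end HypK

end Cfsg.Agent.H2.SP
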